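import Mathlib
import Cfsg.Agent.St.Cox
import Cfsg.Agent.Chev.Dihedral

/-!
Roots (half-spaces) of a Coxeter group, as sets of group elements.
-/

set_option autoImplicit false
set_option linter.unusedSectionVars false

namespace Cfsg.Agent.BNP

open Cfsg.Agent.Chev Cfsg.Agent.St

variable {ι W : Type*} [Group W] (s : ι → W)

/-- The root `w α_i`. -/
def rt (w : W) (i : ι) : Set W := {x | ¬ LD s (w⁻¹ * x) i}

/-- Being a root. -/
def IsRt (A : Set W) : Prop := ∃ w i, A = rt s w i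

/-- Being a root of the parabolic subsystem of type `J`. -/
def InJ (J : Set ι) (A : Set W) : Prop := ∃ w ∈ WJ s J, ∃ i ∈ J, A = rt s w i

/-- `y` lies on a geodesic from `x` to `z`. -/
def Btw (x y z : W) : Prop := wlen s (x⁻¹ * z) = wlen s (x⁻¹ * y) + wlen s (y⁻¹ * z)

/-- Left translate of a set. -/
def tr (w : W) (A : Set W) : Set W := {x | w⁻¹ * x ∈ A}

variable {s}

theorem mem_rt {w x : W} {i : ι} : x ∈ rt s w i ↔ ¬ LD s (w⁻¹ * x) i := Iff.rfl

theorem mem_tr {w x : W} {A : Set W} : x ∈ tr w A ↔ w⁻¹ * x ∈ A := Iff.rfl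

theorem mul_mem_tr {w x : W} {A : Set W} : w * x ∈ tr w A ↔ x ∈ A := by
  rw [mem_tr, inv_mul_cancel_left]

theorem tr_rt (v w : W) (i : ι) : tr v (rt s w i) = rt s (v * w) i := by
  ext x; rw [mem_tr, mem_rt, mem_rt, mul_inv_rev, mul_assoc]

theorem tr_tr (v w : W) (A : Set W) : tr v (tr w A) = tr (v * w) A := by
  ext x; rw [mem_tr, mem_tr, mem_tr, mul_inv_rev, mul_assoc]

theorem tr_one (A : Set W) : tr 1 A = A := by
  ext x; rw [mem_tr, inv_one, one_mul]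

theorem tr_compl (v : W) (A : Set W) : tr v Aᶜ = (tr v A)ᶜ := rfl

theorem tr_injective (v : W) {A B : Set W} (h : tr v A = tr v B) : A = B := by
  rw [← tr_one A, ← tr_one B, ← inv_mul_cancel v, ← tr_tr, ← tr_tr, h]

theorem isRt_rt (w : W) (i : ι) : IsRt s (rt s w i) := ⟨w, i, rfl⟩

theorem IsRt.tr {A : Set W} (h : IsRt s A) (v : W) : IsRt s (tr v A) := by
  obtain ⟨w, i, rfl⟩ := h
  exact ⟨_, _, tr_rt v w i⟩

theorem InJ.isRt {J : Set ι} {A : Set W} (h : InJ s J A) : IsRt s A := by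
  obtain ⟨w, -, i, -, rfl⟩ := h
  exact isRt_rt w i

theorem InJ.tr {J : Set ι} {A : Set W} (h : InJ s J A) {v : W} (hv : v ∈ WJ s J) :
    InJ s J (tr v A) := by
  obtain ⟨w, hw, i, hi, rfl⟩ := h
  exact ⟨_, mul_mem hv hw, i, hi, tr_rt v w i⟩

theorem InJ.mono {J K : Set ι} {A : Set W} (h : InJ s J A) (hJ : J ⊆ K) : InJ s K A := by
  obtain ⟨w, hw, i, hi, rfl⟩ := h
  exact ⟨w, WJ_mono hJ hw, i, hJ hi, rfl⟩

theorem inJ_rt {J : Set ι} {w : W} (hw : w ∈ WJ s J) {i : ι} (hi : i ∈ J) : InJ s J (rt s w i) :=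
  ⟨w, hw, i, hi, rfl⟩

theorem Btw.mul {x y z : W} (h : Btw s x y z) (v : W) : Btw s (v * x) (v * y) (v * z) := by
  unfold Btw at *
  simpa [mul_assoc] using h

theorem btw_one {y z : W} : Btw s 1 y z ↔ wlen s z = wlen s y + wlen s (y⁻¹ * z) := by
  simp [Btw]

variable (h : Cox s)
include h

theorem inJ_univ {A : Set W} (hA : IsRt s A) : InJ s Set.univ A := by
  obtain ⟨w, i, rfl⟩ := hA
  exact inJ_rt (by rw [h.WJ_univ]; trivial) trivial

theorem Btw.symm {x y z : W} (hb : Btw s x y z) : Btw s z y x := by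
  unfold Btw at *
  rw [← h.wlen_inv (z⁻¹ * x), ← h.wlen_inv (z⁻¹ * y), ← h.wlen_inv (y⁻¹ * x)]
  simp only [mul_inv_rev, inv_inv]
  omega

theorem gen_inv (i : ι) : (s i)⁻¹ = s i := h.inv.inv_eq i

theorem gen_ne_one' (i : ι) : s i ≠ 1 := h.ex.simple_ne_one i

theorem cancel_l (i : ι) (w : W) : s i * (s i * w) = w := h.inv.cancel_left i w

theorem cancel_r (i : ι) (w : W) : w * s i * s i = w := h.inv.cancel_right i w

theorem wlen_eq_zero {w : W} : wlen s w = 0 ↔ w = 1 := h.inv.wlen_eq_zero_iff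

theorem eq_gen_of_wlen {w : W} (hw : wlen s w = 1) : ∃ i, w = s i := by
  obtain ⟨i, w', rfl, h1⟩ := h.inv.exists_left hw
  exact ⟨i, by rw [(wlen_eq_zero h).1 h1, mul_one]⟩

theorem LD_gen {i j : ι} : LD s (s i) j ↔ j = i :=
  ⟨fun hd => h.mem_of_LD (J := {i}) (gen_mem_WJ (Set.mem_singleton i)) hd, by
    rintro rfl; rw [h.LD_iff, h.sq, wlen_one, h.wlen_gen]⟩

theorem RD_gen {i j : ι} : RD s (s i) j ↔ j = i := by
  rw [← h.LD_inv, gen_inv h, LD_gen h]

theorem mem_WJ_one {i : ι} {w : W} : w ∈ WJ s {i} ↔ w = 1 ∨ w = s i := by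
  refine ⟨fun hw => ?_, ?_⟩
  · by_cases h1 : w = 1
    · exact Or.inl h1
    obtain ⟨j, hj, hd⟩ := h.exists_RD hw h1
    have ht : IsTop s {i} (s i) := ⟨gen_mem_WJ (Set.mem_singleton i), fun j hj => (RD_gen h).2 hj⟩
    exact Or.inr (h.isTop_unique ⟨hw, fun k hk => by rw [hk, ← hj]; exact hd⟩ ht)
  · rintro (rfl | rfl)
    · exact one_mem _
    · exact gen_mem_WJ (Set.mem_singleton i)

theorem isTop_gen (i : ι) : IsTop s {i} (s i) :=
  ⟨gen_mem_WJ (Set.mem_singleton i), fun _ hj => (RD_gen h).2 hj⟩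

theorem LD_mul_gen_of_eq {x : W} {j k : ι} (e : s j * x = x * s k) :
    LD s (x * s k) j ↔ ¬ LD s x j := by
  rw [← e, h.LD_gen_mul]

theorem LD_iff_RD_of_eq {x : W} {j k : ι} (e : s j * x = x * s k) : LD s x j ↔ RD s x k := by
  unfold LD RD; rw [e]

theorem LD_mul_gen_of_ne {x : W} {j k : ι} (e : s j * x ≠ x * s k) :
    LD s (x * s k) j ↔ LD s x j := by
  have key : ∀ y : W, ¬ RD s y k → s j * y ≠ y * s k → (LD s (y * s k) j ↔ LD s y j) :=
    fun y hy e => ⟨fun h1 => by_contra fun h2 => e (h.gen_mul_eq_of_up h2 hy h1),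
      fun h1 => h.LD_mul (by rw [h.not_RD_iff.1 hy, h.wlen_gen]) h1⟩
  by_cases hd : RD s x k
  · have := key (x * s k) (fun h1 => h.RD_mul_gen.1 h1 hd) (fun h1 => e (by
      rw [cancel_r h] at h1
      exact ((cancel_l h j _).symm.trans (congrArg (s j * ·) h1)).symm))
    rw [cancel_r h] at this
    exact this.symm
  · exact key x hd e

theorem self_mem_rt (w : W) (i : ι) : w ∈ rt s w i := by
  rw [mem_rt, inv_mul_cancel]; exact h.not_LD_one i

theorem mul_gen_notMem_rt (w : W) (i : ι) : w * s i ∉ rt s w i := by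
  rw [mem_rt, inv_mul_cancel_left, not_not, LD_gen h]

theorem one_mem_rt {w : W} {i : ι} : (1 : W) ∈ rt s w i ↔ ¬ RD s w i := by
  rw [mem_rt, mul_one, h.LD_inv]

theorem gen_mem_rt_one {i j : ι} : s j ∈ rt s 1 i ↔ i ≠ j := by
  rw [mem_rt, inv_one, one_mul, LD_gen h]

theorem rt_mul_gen (w : W) (i : ι) : rt s (w * s i) i = (rt s w i)ᶜ := by
  ext x
  rw [Set.mem_compl_iff, mem_rt, mem_rt, mul_inv_rev, gen_inv h, mul_assoc, h.LD_gen_mul]

theorem IsRt.compl {A : Set W} (hA : IsRt s A) : IsRt s Aᶜ := by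
  obtain ⟨w, i, rfl⟩ := hA
  exact ⟨_, _, (rt_mul_gen h w i).symm⟩

theorem InJ.compl {J : Set ι} {A : Set W} (hA : InJ s J A) : InJ s J Aᶜ := by
  obtain ⟨w, hw, i, hi, rfl⟩ := hA
  exact ⟨_, mul_mem hw (gen_mem_WJ hi), i, hi, (rt_mul_gen h w i).symm⟩

/-- Induction along right multiplication by generators from `J`. -/
theorem WJ_induction {J : Set ι} {P : W → Prop} (h1 : P 1)
    (h2 : ∀ x ∈ WJ s J, ∀ k ∈ J, ¬ RD s x k → P x → P (x * s k)) {x : W} (hx : x ∈ WJ s J) :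
    P x := by
  generalize hn : wlen s x = n
  induction n generalizing x with
  | zero => rw [(wlen_eq_zero h).1 hn]; exact h1
  | succ n ih =>
    obtain ⟨k, hk, hd⟩ := h.exists_RD hx (fun e => by rw [e, wlen_one] at hn; omega)
    have hx' := mul_mem hx (gen_mem_WJ hk)
    have := h2 _ hx' k hk (fun h3 => h.RD_mul_gen.1 h3 hd)
      (ih hx' (by have := h.RD_iff.1 hd; omega))
    rwa [cancel_r h] at this

theorem W_induction {P : W → Prop} (h1 : P 1) (h2 : ∀ x k, ¬ RD s x k → P x → P (x * s k))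
    (x : W) : P x :=
  WJ_induction h (J := Set.univ) h1 (fun x _ k _ => h2 x k) (by rw [h.WJ_univ]; trivial)

theorem rt_eq_of_conj {w : W} {i j : ι} (e : s j * w = w * s i) (hw : ¬ RD s w i) :
    rt s w i = rt s 1 j := by
  ext x
  rw [mem_rt, mem_rt, inv_one, one_mul, not_iff_not]
  induction x using W_induction h with
  | h1 => rw [mul_one, h.LD_inv]; exact iff_of_false hw (h.not_LD_one j)
  | h2 x k _ ih =>
    have e' : s i * (w⁻¹ * x) = w⁻¹ * (s j * x) := by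
      rw [show s j = w * s i * w⁻¹ from eq_mul_inv_iff_mul_eq.2 e]; group
    rw [← mul_assoc]
    by_cases e1 : s j * x = x * s k
    · rw [LD_mul_gen_of_eq h e1, LD_mul_gen_of_eq h (by rw [e', e1, mul_assoc]), ih]
    · rw [LD_mul_gen_of_ne h e1, LD_mul_gen_of_ne h (fun e2 => e1 (by
        rwa [e', mul_assoc, mul_right_inj] at e2)), ih]

/-- A root is determined by a pair of adjacent elements it separates. -/
theorem IsRt.eq_of_cross {A : Set W} (hA : IsRt s A) {x : W} {k : ι} (h1 : x ∈ A)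
    (h2 : x * s k ∉ A) : A = rt s x k := by
  obtain ⟨w, i, rfl⟩ := hA
  rw [mem_rt, not_not, ← mul_assoc] at h2
  have e : s i * (w⁻¹ * x) = w⁻¹ * x * s k := by
    by_contra e
    exact h1 ((LD_mul_gen_of_ne h e).1 h2)
  have := congrArg (BNP.tr w) (rt_eq_of_conj h e (fun h3 => h1 ((LD_iff_RD_of_eq h e).2 h3)))
  rw [tr_rt, tr_rt, mul_inv_cancel_left, mul_one] at this
  exact this.symm

theorem conj_of_rt_eq {v w : W} {i j : ι} (e : rt s v i = rt s w j) :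
    s j * (w⁻¹ * v) = w⁻¹ * v * s i := by
  have h1 := self_mem_rt h v i
  have h2 := mul_gen_notMem_rt h v i
  rw [e] at h1 h2
  rw [mem_rt, not_not, ← mul_assoc] at h2
  by_contra e
  exact h1 ((LD_mul_gen_of_ne h e).1 h2)

theorem rt_index_unique {w : W} {i j : ι} (e : rt s w i = rt s w j) : i = j := by
  have := conj_of_rt_eq h e
  rw [inv_mul_cancel, mul_one, one_mul] at this
  exact (h.inj this).symm

theorem mul_gen_mem_rt {w : W} {i j : ι} (hij : i ≠ j) : w * s j ∈ rt s w i := by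
  rw [mem_rt, inv_mul_cancel_left, LD_gen h]; exact hij

theorem wlen_refl_lt {j : ι} {x y : W} (hx : ¬ LD s x j) (hy : LD s y j) :
    wlen s (x⁻¹ * (s j * y)) < wlen s (x⁻¹ * y) := by
  obtain ⟨z, rfl⟩ : ∃ z, y = x * z := ⟨x⁻¹ * y, by group⟩
  rw [inv_mul_cancel_left]
  induction z using W_induction h with
  | h1 => exact absurd (mul_one x ▸ hy) hx
  | h2 z k hz ih =>
    rw [h.not_RD_iff.1 hz]
    by_cases e : s j * (x * z) = x * z * s k
    · rw [← mul_assoc x, ← mul_assoc (s j), e, cancel_r h, inv_mul_cancel_left]; omega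
    · rw [← mul_assoc x, LD_mul_gen_of_ne h e] at hy
      have h1 := ih hy
      have h2 := h.inv.wlen_mul_simple_le k (x⁻¹ * (s j * (x * z)))
      simp only [mul_assoc] at h1 h2 ⊢
      omega

/-- Roots are convex. -/
theorem IsRt.convex {A : Set W} (hA : IsRt s A) {x y z : W} (hb : Btw s x y z) (hx : x ∈ A)
    (hz : z ∈ A) : y ∈ A := by
  obtain ⟨w, j, rfl⟩ := hA
  intro hy
  have hb' := hb.mul w⁻¹
  have h1 := wlen_refl_lt h hx hy
  have h2 := wlen_refl_lt h hz hy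
  rw [← h.wlen_inv ((w⁻¹ * z)⁻¹ * (s j * _)), ← h.wlen_inv ((w⁻¹ * z)⁻¹ * (w⁻¹ * y))] at h2
  have h3 := h.inv.wlen_mul_le ((w⁻¹ * x)⁻¹ * (s j * (w⁻¹ * y)))
    ((w⁻¹ * z)⁻¹ * (s j * (w⁻¹ * y)))⁻¹
  unfold Btw at hb'
  simp only [mul_inv_rev, inv_inv, mul_assoc, mul_inv_cancel_left, inv_mul_cancel_left] at *
  omega

theorem btw_gen {x : W} {k : ι} (hx : ¬ RD s x k) : Btw s 1 x (x * s k) := by
  rw [btw_one, inv_mul_cancel_left, h.wlen_gen, h.not_RD_iff.1 hx]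

theorem btw_of_LD {x z : W} {k : ι} (hd : LD s (x⁻¹ * z) k) : Btw s x (x * s k) z := by
  unfold Btw
  rw [inv_mul_cancel_left, h.wlen_gen, mul_inv_rev, gen_inv h, mul_assoc, ← h.LD_iff.1 hd, add_comm]

theorem btw_top {J : Set ι} {x y w : W} (hw : IsTop s J w) (hy : x⁻¹ * y ∈ WJ s J) :
    Btw s x y (x * w) := by
  unfold Btw
  have := h.wlen_mul_isTop hw (inv_mem hy)
  rw [h.wlen_inv] at this
  simp only [mul_inv_rev, inv_inv, inv_mul_cancel_left, mul_assoc] at *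
  omega

/-- A root separating `1` from an element of `W_J` belongs to the subsystem of type `J`. -/
theorem IsRt.inJ {J : Set ι} {A : Set W} (hA : IsRt s A) (h1 : (1 : W) ∈ A) {x : W}
    (hx : x ∈ WJ s J) (h2 : x ∉ A) : InJ s J A := by
  revert h2
  refine WJ_induction h (P := fun x => x ∉ A → InJ s J A) (fun h2 => absurd h1 h2) ?_ hx
  intro y hy k hk _ ih h2
  by_cases h3 : y ∈ A
  · exact ⟨y, hy, k, hk, hA.eq_of_cross h h3 h2⟩
  · exact ih h3

theorem IsRt.inJ_tr {J : Set ι} {A : Set W} (hA : IsRt s A) {x y : W} (h1 : x ∈ A)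
    (hx : x⁻¹ * y ∈ WJ s J) (h2 : y ∉ A) : InJ s J (BNP.tr x⁻¹ A) :=
  (hA.tr _).inJ h (by rwa [mem_tr, inv_inv, mul_one]) hx
    (by rwa [mem_tr, inv_inv, mul_inv_cancel_left])

theorem LD_mul_min {J : Set ι} {v d : W} (hv : v ∈ WJ s J) (hd : ∀ j ∈ J, ¬ LD s d j) {j : ι}
    (hj : j ∈ J) : LD s (v * d) j ↔ LD s v j := by
  unfold LD
  rw [← mul_assoc, h.wlen_mul_of_not_LD hd hv,
    h.wlen_mul_of_not_LD hd (mul_mem (gen_mem_WJ hj) hv), add_lt_add_iff_right]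

theorem InJ.mul_mem_iff {J : Set ι} {A : Set W} (hA : InJ s J A) {v d : W} (hv : v ∈ WJ s J)
    (hd : ∀ j ∈ J, ¬ LD s d j) : v * d ∈ A ↔ v ∈ A := by
  obtain ⟨w, hw, i, hi, rfl⟩ := hA
  rw [mem_rt, mem_rt, ← mul_assoc, LD_mul_min h (mul_mem (inv_mem hw) hv) hd hi]

theorem exists_dec (J : Set ι) (x : W) :
    ∃ v ∈ WJ s J, ∃ d, (∀ j ∈ J, ¬ LD s d j) ∧ x = v * d := by
  obtain ⟨v, hv, h1⟩ := h.exists_not_RD J x⁻¹
  exact ⟨v, hv, (x⁻¹ * v)⁻¹, fun j hj => by rw [h.LD_inv]; exact h1 j hj, by group⟩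

theorem LD_mul_top {J : Set ι} {x w : W} (hw : IsTop s J w) (hx : x ∈ WJ s J) {j : ι} (hj : j ∈ J) :
    LD s (x * w) j ↔ ¬ LD s x j := by
  have h1 := h.wlen_mul_isTop hw hx
  have h2 := h.wlen_mul_isTop hw (mul_mem (gen_mem_WJ hj) hx)
  rw [h.not_LD_iff, h.LD_iff, ← mul_assoc]
  omega

theorem InJ.mul_top_mem {J : Set ι} {A : Set W} (hA : InJ s J A) {x w : W} (hw : IsTop s J w)
    (hx : x ∈ WJ s J) : x * w ∈ A ↔ x ∉ A := by
  obtain ⟨v, hv, i, hi, rfl⟩ := hA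
  rw [mem_rt, mem_rt, ← mul_assoc, LD_mul_top h hw (mul_mem (inv_mem hv) hx) hi]

theorem InJ.mul_gen_mem {J : Set ι} {A : Set W} (hA : InJ s J A) {x : W} (hx : x ∈ WJ s J)
    (h1 : x ∈ A) {k : ι} (hk : k ∉ J) : x * s k ∈ A := by
  by_contra h2
  have e := hA.isRt.eq_of_cross h h1 h2
  obtain ⟨v, hv, i, hi, rfl⟩ := hA
  have e1 := conj_of_rt_eq h e
  have h3 := mul_mem (inv_mem hx) hv
  refine hk (h.mem_of_gen_mem ?_)
  rw [eq_mul_inv_iff_mul_eq.2 e1]
  exact mul_mem (mul_mem h3 (gen_mem_WJ hi)) (inv_mem h3)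

theorem top_mul_self {J : Set ι} {w : W} (hw : IsTop s J w) : w * w = 1 := by
  nth_rewrite 1 [← h.inv_eq_of_isTop hw]
  exact inv_mul_cancel w

theorem exists_conj_top {J : Set ι} {w : W} (hw : IsTop s J w) {j : ι} (hj : j ∈ J) :
    ∃ k ∈ J, s j * w = w * s k := by
  have h1 := h.wlen_mul_isTop hw (gen_mem_WJ hj)
  have h2 := h.wlen_isTop_mul hw (mul_mem (gen_mem_WJ hj) hw.1)
  rw [h.wlen_gen] at h1
  obtain ⟨k, hk⟩ := eq_gen_of_wlen h (w := w * (s j * w)) (by omega)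
  refine ⟨k, h.mem_of_gen_mem (hk ▸ mul_mem hw.1 (mul_mem (gen_mem_WJ hj) hw.1)), ?_⟩
  rw [← hk, ← mul_assoc w w, top_mul_self h hw, one_mul]

theorem exists_conj_top' {J : Set ι} {w : W} (hw : IsTop s J w) {j : ι} (hj : j ∈ J) :
    ∃ k ∈ J, s k * w = w * s j := by
  obtain ⟨k, hk, e⟩ := exists_conj_top h hw hj
  refine ⟨k, hk, ?_⟩
  have := congrArg Inv.inv e
  rw [mul_inv_rev, mul_inv_rev, h.inv_eq_of_isTop hw, gen_inv h, gen_inv h] at this
  exact this.symm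

theorem commute_of_LD' {i j : ι} (hij : i ≠ j) (hd : LD s (s i * s j) j) :
    s i * s j = s j * s i :=
  (h.gen_mul_eq_of_up (fun h1 => hij ((LD_gen h).1 h1).symm)
    (fun h1 => hij ((RD_gen h).1 h1).symm) hd).symm

/-- All panels at `s j` are interior to `α_i` if `i`, `j` are joined. -/
theorem gen_mul_gen_mem_rt {i j : ι} (hc : s i * s j ≠ s j * s i) (k : ι) :
    s j * s k ∈ rt s 1 i := by
  have hij : i ≠ j := by rintro rfl; exact hc rfl
  by_contra h2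
  have e := conj_of_rt_eq h ((isRt_rt 1 i).eq_of_cross h ((gen_mem_rt_one h).2 hij) h2).symm
  rw [inv_one, one_mul] at e
  have h3 : LD s (s i * s j) j := by
    rw [e]
    by_cases hk : k = j
    · subst hk
      exact absurd (h.inj (mul_right_cancel e)) hij
    · exact h.LD_mul (by
        rw [h.not_RD_iff.1 (fun h1 => hk ((RD_gen h).1 h1)), h.wlen_gen, h.wlen_gen])
        ((LD_gen h).2 rfl)
  exact hc (commute_of_LD' h hij h3)

end Cfsg.Agent.BNP
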