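import Mathlib
import Cfsg.Agent.BNP.Roots

/-!
Roots of rank two parabolic subgroups; moving pairs of roots into rank two.
-/

set_option autoImplicit false
set_option linter.unusedSectionVars false

namespace Cfsg.Agent.BNP

open Cfsg.Agent.Chev Cfsg.Agent.St

variable {ι W : Type*} [Group W] (s : ι → W)

/-- The letter at position `k` of the alternating word. -/
def lt (a b : ι) (k : ℕ) : ι := if k % 2 = 0 then a else b

/-- The alternating product of length `k`. -/
def av (a b : ι) (k : ℕ) : W := wprod s (alt a b k)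

/-- The positive roots of a rank two subsystem in their natural order. -/
def bt (a b : ι) (k : ℕ) : Set W := rt s (av s a b k) (lt a b k)

variable {s}

theorem lt_succ (a b : ι) (k : ℕ) : lt a b (k + 1) = lt b a k := by
  unfold lt; split_ifs <;> first | rfl | omega

theorem lt_mem (a b : ι) (k : ℕ) : lt a b k ∈ ({a, b} : Set ι) := by
  unfold lt; split_ifs <;> simp

theorem lt_ne {a b : ι} (hab : a ≠ b) (k : ℕ) : lt a b k ≠ lt b a k := by
  unfold lt; split_ifs; exacts [hab, hab.symm]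

theorem lt_cases (a b : ι) (k : ℕ) :
    (lt a b k = a ∧ lt b a k = b) ∨ (lt a b k = b ∧ lt b a k = a) := by
  unfold lt; split_ifs <;> simp

theorem eq_lt_or {a b i : ι} (hi : i ∈ ({a, b} : Set ι)) (k : ℕ) : i = lt a b k ∨ i = lt b a k := by
  rcases lt_cases a b k with ⟨h1, h2⟩ | ⟨h1, h2⟩ <;> rw [h1, h2]
  · exact hi
  · exact Or.symm hi

@[simp] theorem av_zero (a b : ι) : av s a b 0 = 1 := rfl

theorem av_succ (a b : ι) (k : ℕ) : av s a b (k + 1) = s a * av s b a k := rfl

theorem av_succ' (k : ℕ) : ∀ a b : ι, av s a b (k + 1) = av s a b k * s (lt a b k) := by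
  induction k with
  | zero => intro a b; simp [av_succ, lt]
  | succ k ih => intro a b; rw [av_succ, ih, ← mul_assoc, ← av_succ, lt_succ]

theorem av_one (a b : ι) : av s a b 1 = s a := by simp [av_succ]

theorem av_two (a b : ι) : av s a b 2 = s a * s b := by simp [av_succ]

theorem av_three (a b : ι) : av s a b 3 = s a * s b * s a := by simp [av_succ, mul_assoc]

theorem bt_zero (a b : ι) : bt s a b 0 = rt s 1 a := rfl

theorem bt_one (a b : ι) : bt s a b 1 = rt s (s a) b := by rw [bt, av_one]; rfl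

theorem bt_two (a b : ι) : bt s a b 2 = rt s (s a * s b) a := by rw [bt, av_two]; rfl

theorem bt_succ (a b : ι) (k : ℕ) : bt s a b (k + 1) = tr (s a) (bt s b a k) := by
  rw [bt, bt, tr_rt, av_succ, lt_succ]

theorem av_mem (a b : ι) (k : ℕ) : av s a b k ∈ WJ s {a, b} := by
  induction k with
  | zero => exact one_mem _
  | succ k ih => rw [av_succ']; exact mul_mem ih (gen_mem_WJ (lt_mem a b k))

theorem av_mem' (a b : ι) (k : ℕ) : av s b a k ∈ WJ s {a, b} := by
  rw [Set.pair_comm]; exact av_mem b a k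

theorem inJ_bt (a b : ι) (k : ℕ) : InJ s {a, b} (bt s a b k) :=
  inJ_rt (av_mem a b k) (lt_mem a b k)

theorem isRt_bt (a b : ι) (k : ℕ) : IsRt s (bt s a b k) := isRt_rt _ _

variable (h : Cox s)
include h

theorem ord_comm (a b : ι) : orderOf (s b * s a) = orderOf (s a * s b) := by
  rw [← orderOf_inv, mul_inv_rev, gen_inv h, gen_inv h]

theorem wlen_av {a b : ι} {k : ℕ} (hk : k ≤ orderOf (s a * s b)) : wlen s (av s a b k) = k :=
  (h.ex.reduced_alt_of_le h.inv a b hk).trans (length_alt a b k)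

theorem av_ord (a b : ι) : av s a b (orderOf (s a * s b)) = av s b a (orderOf (s a * s b)) :=
  (wprod_alt_eq_iff s h.sq _ a b).2 (pow_orderOf_eq_one _)

theorem av_inv_mul (a b : ι) (k j : ℕ) :
    (av s a b k)⁻¹ * av s b a j = av s (lt b a k) (lt a b k) (k + j) := by
  induction k with
  | zero => simp [lt]
  | succ k ih =>
    rw [av_succ', mul_inv_rev, gen_inv h, mul_assoc, ih, lt_succ, lt_succ, ← av_succ]
    congr 1; omega

theorem not_RD_av {a b : ι} {k : ℕ} (hk : k < orderOf (s a * s b)) :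
    ¬ RD s (av s a b k) (lt a b k) := by
  rw [h.not_RD_iff, ← av_succ', wlen_av h hk, wlen_av h hk.le]

theorem RD_av {a b : ι} {k : ℕ} (hk : k < orderOf (s a * s b)) :
    RD s (av s a b (k + 1)) (lt a b k) := by
  rw [av_succ', h.RD_mul_gen]; exact not_RD_av h hk

theorem LD_av {a b : ι} {k : ℕ} (hk : k < orderOf (s a * s b)) : LD s (av s a b (k + 1)) a := by
  rw [h.LD_iff, wlen_av h hk, av_succ, cancel_l h, wlen_av h (by rw [ord_comm h]; omega)]

theorem not_LD_av {a b : ι} {k : ℕ} (hk : k < orderOf (s a * s b)) : ¬ LD s (av s a b k) b := by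
  rw [h.not_LD_iff, ← av_succ, wlen_av h hk.le, wlen_av h (by rw [ord_comm h]; omega)]

theorem LD_av_iff {a b c : ι} {k : ℕ} (hk : k + 1 < orderOf (s a * s b)) :
    LD s (av s a b (k + 1)) c ↔ c = a := by
  refine ⟨fun hd => ?_, fun e => by rw [e]; exact LD_av h (by omega)⟩
  rcases h.mem_of_LD (av_mem a b _) hd with e | e
  · exact e
  · exact absurd (e ▸ hd) (not_LD_av h hk)

theorem one_mem_bt {a b : ι} {k : ℕ} (hk : k < orderOf (s a * s b)) : (1 : W) ∈ bt s a b k :=
  (one_mem_rt h).2 (not_RD_av h hk)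

theorem btw_av {a b : ι} {k l : ℕ} (hk : k ≤ l) (hl : l ≤ orderOf (s a * s b)) :
    Btw s 1 (av s a b k) (av s a b l) := by
  rw [btw_one, wlen_av h hl, wlen_av h (hk.trans hl)]
  obtain ⟨j, rfl⟩ := Nat.exists_eq_add_of_le hk
  have e : ∀ j, av s a b (k + j) = av s a b k * av s (lt a b k) (lt b a k) j := by
    intro j
    induction j with
    | zero => simp
    | succ j ih =>
      rw [← add_assoc, av_succ', av_succ', ih, mul_assoc]
      congr 3
      unfold lt; split_ifs <;> first | rfl | omega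
  rw [e, inv_mul_cancel_left, wlen_av h]
  rcases lt_cases a b k with ⟨h1, h2⟩ | ⟨h1, h2⟩ <;> rw [h1, h2]
  · omega
  · rw [ord_comm h]; omega

theorem av_mem_bt {a b : ι} {k l : ℕ} (hk : k ≤ orderOf (s a * s b))
    (hl : l < orderOf (s a * s b)) : av s a b k ∈ bt s a b l ↔ k ≤ l := by
  refine ⟨fun h1 => by_contra fun h2 => mul_gen_notMem_rt h (av s a b l) (lt a b l) ?_, fun h1 =>
    (isRt_bt a b l).convex h (btw_av h h1 hl.le) (one_mem_bt h hl) (self_mem_rt h _ _)⟩
  rw [← av_succ']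
  exact (isRt_bt a b l).convex h (btw_av h (by omega) hk) (one_mem_bt h hl) h1

variable [Finite W]

theorem ord_pos (a b : ι) : 0 < orderOf (s a * s b) := orderOf_pos _

theorem two_le_ord {a b : ι} (hab : a ≠ b) : 2 ≤ orderOf (s a * s b) := by
  have h1 := ord_pos h a b
  have h2 : orderOf (s a * s b) ≠ 1 := fun e => hab (h.inj (by
    rw [orderOf_eq_one_iff] at e
    rw [eq_inv_of_mul_eq_one_left e, gen_inv h]))
  omega

theorem isTop_av (a b : ι) : IsTop s {a, b} (av s a b (orderOf (s a * s b))) := by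
  obtain ⟨k, hk⟩ := Nat.exists_eq_succ_of_ne_zero (ord_pos h a b).ne'
  refine h.isTop_iff_LD.2 ⟨av_mem a b _, ?_⟩
  rintro j (rfl | rfl)
  · rw [hk]; exact LD_av h (by omega)
  · rw [av_ord h, hk]; exact LD_av h (by rw [ord_comm h]; omega)

theorem eq_av {a b : ι} {v : W} (hv : v ∈ WJ s {a, b}) :
    ∃ k ≤ orderOf (s a * s b), v = av s a b k ∨ v = av s b a k := by
  have key : ∀ c d : ι, ∀ k ≤ orderOf (s c * s d), ∀ i ∈ ({c, d} : Set ι),
      ¬ RD s (av s c d k) i → (k < orderOf (s c * s d) ∧ (av s c d k * s i = av s c d (k + 1) ∨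
        av s c d k * s i = av s d c (k + 1))) := by
    intro c d k hk i hi hd
    have h1 : k ≠ orderOf (s c * s d) := fun e => hd ((isTop_av h c d).2 i hi |> (e ▸ ·))
    refine ⟨by omega, ?_⟩
    rcases eq_lt_or hi k with e | e
    · left; rw [av_succ', ← e]
    · right
      cases k with
      | zero => rw [av_succ', ← e]; rfl
      | succ k => rw [e, lt_succ] at hd; exact absurd (RD_av h (by omega)) hd
  refine WJ_induction h (P := fun v => ∃ k ≤ orderOf (s a * s b), v = av s a b k ∨ v = av s b a k)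
    ⟨0, by omega, Or.inl rfl⟩ ?_ hv
  rintro x - i hi hd ⟨k, hk, rfl | rfl⟩
  · obtain ⟨h1, h2⟩ := key a b k hk i hi hd
    exact ⟨k + 1, h1, h2⟩
  · obtain ⟨h1, h2⟩ := key b a k (by rwa [ord_comm h]) i (by rwa [Set.pair_comm]) hd
    exact ⟨k + 1, by rwa [ord_comm h] at h1, h2.symm⟩

theorem eq_lt_of_not_RD {a b i : ι} {k : ℕ} (hk : k + 1 ≤ orderOf (s a * s b))
    (hi : i ∈ ({a, b} : Set ι)) (hd : ¬ RD s (av s a b (k + 1)) i) :
    k + 1 < orderOf (s a * s b) ∧ i = lt a b (k + 1) := by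
  refine ⟨lt_of_le_of_ne hk fun e => hd ((isTop_av h a b).2 i hi |> (e ▸ ·)), ?_⟩
  rcases eq_lt_or hi (k + 1) with e | e
  · exact e
  · rw [e, lt_succ] at hd; exact absurd (RD_av h (by omega)) hd

theorem av_mul_top {a b : ι} {k l : ℕ} (hk : k + l = orderOf (s a * s b)) :
    av s a b k * av s a b (orderOf (s a * s b)) = av s b a l := by
  have h1 := av_inv_mul h a b k l
  have h2 : av s (lt b a k) (lt a b k) (k + l) = av s a b (orderOf (s a * s b)) := by
    rcases lt_cases a b k with ⟨h1, h2⟩ | ⟨h1, h2⟩ <;> rw [h1, h2, hk]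
    exact (av_ord h a b).symm
  rw [← h2, ← h1, mul_inv_cancel_left]

theorem av_mem_bt' {a b : ι} {k l : ℕ} (hk : k ≤ orderOf (s a * s b))
    (hl : l < orderOf (s a * s b)) : av s b a k ∈ bt s a b l ↔ k + l < orderOf (s a * s b) := by
  rw [← av_mul_top h (k := orderOf (s a * s b) - k) (by omega),
    (inJ_bt a b l).mul_top_mem h (isTop_av h a b) (av_mem a b _), av_mem_bt h (by omega) hl]
  omega

theorem InJ.eq_bt {a b : ι} {A : Set W} (hA : InJ s {a, b} A) (h1 : (1 : W) ∈ A) :
    ∃ l < orderOf (s a * s b), A = bt s a b l := by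
  have h2 : av s a b (orderOf (s a * s b)) ∉ A := fun h2 =>
    (hA.mul_top_mem h (isTop_av h a b) (one_mem _)).1 (by rwa [one_mul]) h1
  generalize orderOf (s a * s b) = m at h2 ⊢
  induction m with
  | zero => exact absurd h1 h2
  | succ m ih =>
    by_cases h3 : av s a b m ∈ A
    · exact ⟨m, by omega, hA.isRt.eq_of_cross h h3 (by rwa [← av_succ'])⟩
    · obtain ⟨l, hl, e⟩ := ih h3
      exact ⟨l, by omega, e⟩

theorem bt_inj {a b : ι} {k l : ℕ} (hk : k < orderOf (s a * s b)) (hl : l < orderOf (s a * s b))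
    (e : bt s a b k = bt s a b l) : k = l := by
  have h1 := (av_mem_bt h hk.le hk).2 le_rfl
  have h2 := (av_mem_bt h hl.le hl).2 le_rfl
  rw [e, av_mem_bt h hk.le hl] at h1
  rw [← e, av_mem_bt h hl.le hk] at h2
  omega

theorem bt_symm {a b : ι} {k l : ℕ} (hk : k + l + 1 = orderOf (s a * s b)) :
    bt s b a k = bt s a b l := by
  refine ((isRt_bt a b l).eq_of_cross h ((av_mem_bt' h (by omega) (by omega)).2 (by omega))
    ?_).symm
  rw [← av_succ', av_mem_bt' h (by omega) (by omega)]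
  omega

theorem bt_interval {a b : ι} {k l r : ℕ} (hk : k ≤ l) (hl : l ≤ r) (hr : r < orderOf (s a * s b))
    {x : W} (h1 : x ∈ bt s a b k) (h2 : x ∈ bt s a b r) : x ∈ bt s a b l := by
  obtain ⟨v, hv, d, hd, rfl⟩ := exists_dec h {a, b} x
  rw [(inJ_bt a b _).mul_mem_iff h hv hd] at h1 h2 ⊢
  obtain ⟨j, hj, rfl | rfl⟩ := eq_av h hv
  · rw [av_mem_bt h hj (by omega)] at h1 ⊢; omega
  · rw [av_mem_bt' h hj (by omega)] at h2 ⊢; omega

theorem not_mem_of_isTop {A : Set W} (hA : IsRt s A) (h1 : (1 : W) ∈ A) {w : W}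
    (hw : IsTop s Set.univ w) : w ∉ A := fun h2 =>
  ((inJ_univ h hA).mul_top_mem h hw (one_mem _)).1 (by rwa [one_mul]) h1

/-- Two positive roots, one of them simple, are simultaneously conjugate into a rank two
subsystem. -/
theorem exists_rank_two {i : ι} {C : Set W} (hC : IsRt s C) (h1 : (1 : W) ∈ C)
    (hne : C ≠ rt s 1 i) : ∃ u a b r, a ≠ b ∧ rt s u a = rt s 1 i ∧ 0 < r ∧
      r < orderOf (s a * s b) ∧ C = tr u (bt s a b r) := by
  obtain ⟨w, hw⟩ := h.exists_isTop (Set.univ : Set ι)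
  suffices H : ∀ n u a, wlen s w ≤ wlen s u + n → rt s u a = rt s 1 i → u ∈ C → ∃ u a b r,
      a ≠ b ∧ rt s u a = rt s 1 i ∧ 0 < r ∧ r < orderOf (s a * s b) ∧ C = tr u (bt s a b r) from
    H _ 1 i (Nat.le_add_left _ _) rfl h1
  intro n
  induction n using Nat.strong_induction_on with
  | _ n ih =>
  intro u a hn e hu
  have ha : ¬ RD s u a := (one_mem_rt h).1 (e ▸ self_mem_rt h 1 i)
  have e1 : s i * u = u * s a := by simpa using conj_of_rt_eq h e
  by_cases hb : ∀ b, b ≠ a → RD s u b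
  · have h2 : IsTop s Set.univ (u * s a) := ⟨by rw [h.WJ_univ]; trivial, fun b _ => by
      by_cases hba : b = a
      · rw [hba, h.RD_mul_gen]; exact ha
      · rw [← e1]
        exact h.RD_mul (by rw [e1, h.not_RD_iff.1 ha, h.wlen_gen, add_comm]) (hb b hba)⟩
    exact absurd ((hC.eq_of_cross h hu (not_mem_of_isTop h hC h1 h2)).trans e) hne
  push Not at hb
  obtain ⟨b, hba, hb⟩ := hb
  have h3 : (1 : W) ∈ tr u⁻¹ C := by rwa [mem_tr, inv_inv, mul_one]
  by_cases hJ : InJ s {a, b} (tr u⁻¹ C)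
  · obtain ⟨r, hr, e2⟩ := hJ.eq_bt h h3
    have e3 : C = tr u (bt s a b r) := by rw [← e2, tr_tr, mul_inv_cancel, tr_one]
    refine ⟨u, a, b, r, hba.symm, e, Nat.pos_of_ne_zero ?_, hr, e3⟩
    rintro rfl
    exact hne (by rw [e3, bt_zero, tr_rt, mul_one, e])
  · have h4 := two_le_ord h hba
    obtain ⟨k, hk⟩ : ∃ k, k + 1 + 0 + 1 = orderOf (s a * s b) :=
      ⟨orderOf (s a * s b) - 2, by rw [ord_comm h]; omega⟩
    have h5 : wlen s (u * av s b a (k + 1)) = wlen s u + (k + 1) := by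
      rw [h.wlen_mul_of_not_RD (J := {a, b}) (by rintro j (rfl | rfl) <;> assumption)
        (av_mem' a b _), wlen_av h (by rw [ord_comm h]; omega)]
    have h6 := h.wlen_le_of_isTop hw (v := u * av s b a (k + 1)) (by rw [h.WJ_univ]; trivial)
    refine ih (n - 1) (by omega) (u * av s b a (k + 1)) (lt b a (k + 1)) (by omega) ?_ ?_
    · rw [← tr_rt, ← e]
      exact (congrArg (tr u) (bt_symm h (k := k + 1) (l := 0) hk)).trans (by rw [bt_zero, tr_rt, mul_one])
    · by_contra h7
      exact hJ (hC.inJ_tr h hu (by rw [inv_mul_cancel_left]; exact av_mem' a b _) h7)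

/-- An element carrying a simple root to a simple root is a product of rank two moves. -/
theorem groupoid {P : W → ι → ι → Prop} (h0 : ∀ i, P 1 i i)
    (h1 : ∀ u i j l k v, k ≠ i → v ∈ WJ s {i, k} → l ∈ ({i, k} : Set ι) → rt s v i = rt s 1 l →
      rt s u l = rt s 1 j → P u l j → P (u * v) i j)
    {w : W} {i j : ι} (e : rt s w i = rt s 1 j) : P w i j := by
  generalize hn : wlen s w = n
  induction n using Nat.strong_induction_on generalizing w i with
  | _ n ih =>
  by_cases hw : w = 1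
  · subst hw
    rw [rt_index_unique h e]; exact h0 j
  obtain ⟨k, -, hk⟩ := h.exists_RD (J := Set.univ) (w := w) (by rw [h.WJ_univ]; trivial) hw
  have hi : ¬ RD s w i := (one_mem_rt h).1 (e ▸ self_mem_rt h 1 j)
  obtain ⟨v, hv, hu⟩ := h.exists_not_RD {i, k} w
  have hv' := inv_mem hv
  have e1 : s j * w = w * s i := by simpa using conj_of_rt_eq h e
  have ht : v⁻¹ * s i * v ∈ WJ s {i, k} := mul_mem (mul_mem hv' (gen_mem_WJ (by simp))) hv
  have h2 := h.wlen_mul_of_not_RD hu ht
  rw [show w * v * (v⁻¹ * s i * v) = s j * (w * v) by rw [← mul_assoc (s j), e1]; group] at h2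
  have h3 := h.inv.wlen_simple_mul_le j (w * v)
  have h4 : wlen s (v⁻¹ * s i * v) ≠ 0 := fun h4 => gen_ne_one' h i (by
    have := (wlen_eq_zero h).1 h4
    rw [mul_assoc, inv_mul_eq_one] at this
    simpa using this.symm)
  obtain ⟨l, hl⟩ := eq_gen_of_wlen h (w := v⁻¹ * s i * v) (by omega)
  have h5 := h.wlen_mul_of_not_RD hu hv'
  rw [mul_inv_cancel_right] at h5
  have e2 : rt s v⁻¹ i = rt s 1 l := rt_eq_of_conj h (by rw [← hl]; group) fun hd => hi (by
    have := h.RD_mul (by rwa [mul_inv_cancel_right]) hd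
    rwa [mul_inv_cancel_right] at this)
  have e3 : rt s (w * v) l = rt s 1 j := by
    rw [← mul_one (w * v), ← tr_rt, ← e2, tr_rt, mul_inv_cancel_right, e]
  have h6 : wlen s v⁻¹ ≠ 0 := fun h6 => hu k (by simp) (by
    rwa [inv_eq_one.1 ((wlen_eq_zero h).1 h6), mul_one])
  have := h1 (w * v) i j l k v⁻¹ (by rintro rfl; exact hi hk) hv' (h.mem_of_gen_mem (hl ▸ ht)) e2
    e3 (ih _ (by omega) e3 rfl)
  rwa [mul_inv_cancel_right] at this

end Cfsg.Agent.BNP
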