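import Mathlib
import Cfsg.Agent.UL.Bld
import Cfsg.Agent.BNP.Dih

/-!
The building of a Tits system: chambers, Weyl distance, gates, the standard apartment, rigidity.
-/

set_option autoImplicit false
set_option linter.unusedSectionVars false

namespace Cfsg.Agent.BNP

open Cfsg.Agent.Chev Cfsg.Agent.St

variable {G ι W : Type*} [Group G] [Group W] (T : Tits G ι W)

/-- Chambers. -/
abbrev Ch := G ⧸ T.B

/-- The Weyl distance. -/
@[irreducible] def dist (x y : Ch T) : W :=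
  Quotient.liftOn₂' x y (fun a b => T.wt (a⁻¹ * b)) fun a b a' b' h h' => by
    rw [QuotientGroup.leftRel_apply] at h h'
    rw [show a'⁻¹ * b' = (a⁻¹ * a')⁻¹ * (a⁻¹ * b * (b⁻¹ * b')) by group, T.wt_B_mul (inv_mem h),
      T.wt_mul_B _ h']

/-- The standard apartment. -/
@[irreducible] noncomputable def ap (w : W) : Ch T := ((T.exists_N w).choose : G)

/-- `x` and `y` lie in the same residue of type `J`. -/
def Rs (J : Set ι) (x y : Ch T) : Prop := dist T x y ∈ WJ T.s J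

/-- `g` acts on the standard apartment as `w`. -/
def Mv (g : G) (w : W) : Prop := ∀ v, g • ap T v = ap T (w * v)

/-- `φ` is the identity on the residue of type `J` of `x`. -/
def FixR (φ : Ch T → Ch T) (x : Ch T) (J : Set ι) : Prop := ∀ y, Rs T J x y → φ y = y

variable {T}

set_option hygiene false in
local notation "δ" => dist T
set_option hygiene false in
local notation "𝐬" => T.s
set_option hygiene false in
local notation "ℓ" => wlen T.s

theorem dist_mk (a b : G) : δ (a : Ch T) (b : Ch T) = T.wt (a⁻¹ * b) := by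
  unfold dist; rfl

theorem smul_mk (g a : G) : g • (a : Ch T) = ((g * a : G) : Ch T) := rfl

@[simp] theorem dist_smul (g : G) (x y : Ch T) : δ (g • x) (g • y) = δ x y := by
  induction x using QuotientGroup.induction_on
  induction y using QuotientGroup.induction_on
  rw [smul_mk, smul_mk, dist_mk, dist_mk]; congr 1; group

theorem dist_smul_left (g : G) (x y : Ch T) : δ (g • x) y = δ x (g⁻¹ • y) := by
  rw [← dist_smul g x, smul_inv_smul]

theorem dist_of_fix {g : G} {x : Ch T} (h : g • x = x) (y : Ch T) : δ x (g • y) = δ x y := by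
  rw [← dist_smul g x y, h]

theorem dist_eq_one {x y : Ch T} : δ x y = 1 ↔ x = y := by
  induction x using QuotientGroup.induction_on
  induction y using QuotientGroup.induction_on
  rw [dist_mk, T.wt_eq_one, QuotientGroup.eq]

@[simp] theorem dist_self (x : Ch T) : δ x x = 1 := dist_eq_one.2 rfl

theorem dist_comm (x y : Ch T) : δ y x = (δ x y)⁻¹ := by
  induction x using QuotientGroup.induction_on
  induction y using QuotientGroup.induction_on
  rw [dist_mk, dist_mk, ← T.wt_inv, mul_inv_rev, inv_inv]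

theorem dist_gen_symm {x y : Ch T} {i : ι} (h : δ x y = 𝐬 i) : δ y x = 𝐬 i := by
  rw [dist_comm, h, gen_inv T.cox]

theorem ne_of_dist_gen {x y : Ch T} {i : ι} (h : δ x y = 𝐬 i) : x ≠ y := fun e =>
  gen_ne_one' T.cox i (h ▸ dist_eq_one.2 e)

theorem exists_smul_eq {x y x' y' : Ch T} (h : δ x y = δ x' y') :
    ∃ g : G, g • x = x' ∧ g • y = y' := by
  induction x using QuotientGroup.induction_on with | H a => ?_
  induction y using QuotientGroup.induction_on with | H b => ?_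
  induction x' using QuotientGroup.induction_on with | H a' => ?_
  induction y' using QuotientGroup.induction_on with | H b' => ?_
  rw [dist_mk, dist_mk] at h
  obtain ⟨c, hc, c', hc', e⟩ := T.exists_eq h
  refine ⟨a' * c * a⁻¹, ?_, ?_⟩
  · rw [smul_mk, QuotientGroup.eq, inv_mul_cancel_right, mul_inv_rev, inv_mul_cancel_right]
    exact inv_mem hc
  · rw [smul_mk, QuotientGroup.eq, show b' = a' * (c * (a⁻¹ * b) * c') by rw [← e]; group]
    convert hc' using 1; group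

theorem exists_mid {x z : Ch T} {u v : W} (h : δ x z = u * v) : ∃ y, δ x y = u ∧ δ y z = v := by
  induction x using QuotientGroup.induction_on with | H a => ?_
  induction z using QuotientGroup.induction_on with | H b => ?_
  rw [dist_mk] at h
  obtain ⟨c, d, hc, hd, e⟩ := T.exists_mul_eq h
  refine ⟨(a * c : G), by rw [dist_mk, inv_mul_cancel_left, hc], ?_⟩
  rw [dist_mk, mul_inv_rev, mul_assoc, e, inv_mul_cancel_left, hd]

theorem exists_dist (x : Ch T) (w : W) : ∃ y, δ x y = w := by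
  obtain ⟨y, h, -⟩ := exists_mid (x := x) (z := x) (u := w) (v := w⁻¹) (by simp)
  exact ⟨y, h⟩

theorem dist_add {x y z : Ch T} (h : ℓ (δ x y * δ y z) = ℓ (δ x y) + ℓ (δ y z)) :
    δ x z = δ x y * δ y z := by
  induction x using QuotientGroup.induction_on
  induction y using QuotientGroup.induction_on
  induction z using QuotientGroup.induction_on
  rw [dist_mk, dist_mk] at *
  rw [dist_mk, ← T.wt_mul_of_add h]; congr 1; group

theorem dist_add' {x y z : Ch T} {u v : W} (h1 : δ x y = u) (h2 : δ y z = v)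
    (h : ℓ (u * v) = ℓ u + ℓ v) : δ x z = u * v := by
  subst h1 h2; exact dist_add h

theorem mid_unique {x y y' z : Ch T} (h1 : δ x y = δ x y') (h2 : δ y z = δ y' z)
    (h : ℓ (δ x y * δ y z) = ℓ (δ x y) + ℓ (δ y z)) : y = y' := by
  induction x using QuotientGroup.induction_on
  induction y using QuotientGroup.induction_on
  induction y' using QuotientGroup.induction_on
  induction z using QuotientGroup.induction_on
  simp only [dist_mk] at h1 h2 h
  have := UL.mid_unique T h1 h2 h (by group)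
  rw [QuotientGroup.eq]
  convert this using 1; group

theorem dist_left_gen {x y : Ch T} {i : ι} (h : δ x y = 𝐬 i) (z : Ch T) :
    δ x z = 𝐬 i * δ y z ∨ δ x z = δ y z := by
  induction x using QuotientGroup.induction_on with | H a => ?_
  induction y using QuotientGroup.induction_on with | H b => ?_
  induction z using QuotientGroup.induction_on with | H c => ?_
  rw [dist_mk] at h
  have := T.gen_mul h (b⁻¹ * c)
  rwa [mul_assoc, mul_inv_cancel_left, ← dist_mk, ← dist_mk] at this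

theorem dist_right_gen {y z : Ch T} {i : ι} (h : δ y z = 𝐬 i) (x : Ch T) :
    δ x z = δ x y * 𝐬 i ∨ δ x z = δ x y := by
  rcases dist_left_gen (dist_gen_symm h) x with e | e
  · left; rw [dist_comm z, e, mul_inv_rev, gen_inv T.cox, ← dist_comm]
  · right; rw [dist_comm z, e, ← dist_comm]

theorem dist_right_up {x y z : Ch T} {i : ι} (h : δ y z = 𝐬 i) (hx : ¬ RD 𝐬 (δ x y) i) :
    δ x z = δ x y * 𝐬 i :=
  dist_add' rfl h (by rw [T.cox.not_RD_iff.1 hx, T.cox.wlen_gen])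

theorem dist_left_up {x y z : Ch T} {i : ι} (h : δ x y = 𝐬 i) (hx : ¬ LD 𝐬 (δ y z) i) :
    δ x z = 𝐬 i * δ y z :=
  dist_add' h rfl (by rw [T.cox.not_LD_iff.1 hx, T.cox.wlen_gen, add_comm])

theorem Rs.exists_left {J : Set ι} {x y : Ch T} (h : Rs T J x y) (z : Ch T) :
    ∃ u ∈ WJ 𝐬 J, δ x z = u * δ y z := by
  induction x using QuotientGroup.induction_on with | H a => ?_
  induction y using QuotientGroup.induction_on with | H b => ?_
  induction z using QuotientGroup.induction_on with | H c => ?_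
  rw [Rs, dist_mk] at h
  have := T.exists_wt_mul h (b⁻¹ * c)
  rwa [mul_assoc, mul_inv_cancel_left, ← dist_mk, ← dist_mk] at this

theorem Rs.refl (J : Set ι) (x : Ch T) : Rs T J x x := by
  rw [Rs, dist_self]; exact one_mem _

theorem Rs.symm {J : Set ι} {x y : Ch T} (h : Rs T J x y) : Rs T J y x := by
  rw [Rs, dist_comm]; exact inv_mem h

theorem Rs.trans {J : Set ι} {x y z : Ch T} (h : Rs T J x y) (h' : Rs T J y z) : Rs T J x z := by
  obtain ⟨u, hu, e⟩ := h.exists_left z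
  rw [Rs, e]; exact mul_mem hu h'

theorem Rs.mono {J K : Set ι} {x y : Ch T} (h : Rs T J x y) (hJ : J ⊆ K) : Rs T K x y :=
  WJ_mono hJ h

theorem Rs.exists_right {J : Set ι} {y z : Ch T} (h : Rs T J y z) (x : Ch T) :
    ∃ u ∈ WJ 𝐬 J, δ x z = δ x y * u := by
  obtain ⟨u, hu, e⟩ := h.symm.exists_left x
  exact ⟨u⁻¹, inv_mem hu, by rw [dist_comm z, e, mul_inv_rev, ← dist_comm]⟩

@[simp] theorem rs_smul {J : Set ι} (g : G) {x y : Ch T} : Rs T J (g • x) (g • y) ↔ Rs T J x y := by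
  rw [Rs, dist_smul, Rs]

theorem Rs.smul_of_fix {J : Set ι} {g : G} {x y : Ch T} (h : Rs T J x y) (hx : g • x = x) :
    Rs T J x (g • y) := by
  rwa [Rs, dist_of_fix hx]

theorem rs_univ (x y : Ch T) : Rs T Set.univ x y := by
  rw [Rs, T.cox.WJ_univ]; trivial

theorem rs_one {i : ι} {x y : Ch T} : Rs T {i} x y ↔ x = y ∨ δ x y = 𝐬 i := by
  rw [Rs, mem_WJ_one T.cox, dist_eq_one]

theorem rs_of_gen {J : Set ι} {i : ι} (hi : i ∈ J) {x y : Ch T} (h : δ x y = 𝐬 i) : Rs T J x y := by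
  rw [Rs, h]; exact gen_mem_WJ hi

theorem rs_gen {i : ι} {x y : Ch T} (h : δ x y = 𝐬 i) : Rs T {i} x y :=
  rs_of_gen (Set.mem_singleton i) h

theorem Rs.dist_eq {i : ι} {x y : Ch T} (h : Rs T {i} x y) (hne : x ≠ y) : δ x y = 𝐬 i :=
  (rs_one.1 h).resolve_left hne

theorem exists_gate (J : Set ι) (x y : Ch T) : ∃ z, Rs T J y z ∧ ∀ j ∈ J, ¬ RD 𝐬 (δ x z) j := by
  obtain ⟨v, hv, h⟩ := T.cox.exists_not_RD J (δ x y)
  obtain ⟨z, h1, h2⟩ := exists_mid (x := x) (z := y) (u := δ x y * v) (v := v⁻¹) (by group)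
  exact ⟨z, Rs.symm (by rw [Rs, h2]; exact inv_mem hv), h1 ▸ h⟩

theorem dist_gate {J : Set ι} {x z z' : Ch T} (h : ∀ j ∈ J, ¬ RD 𝐬 (δ x z) j) (hz : Rs T J z z') :
    δ x z' = δ x z * δ z z' :=
  dist_add (T.cox.wlen_mul_of_not_RD h hz)

theorem gate_unique {J : Set ι} {x z z' : Ch T} (h : ∀ j ∈ J, ¬ RD 𝐬 (δ x z) j)
    (h' : ∀ j ∈ J, ¬ RD 𝐬 (δ x z') j) (hz : Rs T J z z') : z = z' :=
  dist_eq_one.1 (T.cox.eq_one_of_not_RD h hz (by rwa [← dist_gate h hz]))

theorem gate_unique_one {i : ι} {x z z' : Ch T} (h : ¬ RD 𝐬 (δ x z) i) (h' : ¬ RD 𝐬 (δ x z') i)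
    (hz : Rs T {i} z z') : z = z' :=
  gate_unique (J := {i}) (fun _ hj => hj ▸ h) (fun _ hj => hj ▸ h') hz

theorem exists_ne_two (x : Ch T) (i : ι) (a b : Ch T) : ∃ z, Rs T {i} x z ∧ z ≠ a ∧ z ≠ b := by
  induction x using QuotientGroup.induction_on with | H g => ?_
  obtain ⟨c, d, hc, hd, hcd⟩ := T.thick i
  have h1 : δ (g : Ch T) (g * c : G) = 𝐬 i := by rw [dist_mk, inv_mul_cancel_left, hc]
  have h2 : δ (g : Ch T) (g * (c * d) : G) = 𝐬 i := by rw [dist_mk, inv_mul_cancel_left, hcd]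
  have h3 : δ ((g * c : G) : Ch T) (g * (c * d) : G) = 𝐬 i := by
    rw [dist_mk, ← hd]; congr 1; group
  have n1 := ne_of_dist_gen h1
  have n2 := ne_of_dist_gen h2
  have n3 := ne_of_dist_gen h3
  by_contra h
  push Not at h
  have k1 := h _ (Rs.refl _ _)
  have k2 := h _ (rs_gen h1)
  have k3 := h _ (rs_gen h2)
  by_cases e1 : (g : Ch T) = a
  · exact n3 ((k2 (e1 ▸ n1.symm)).trans (k3 (e1 ▸ n2.symm)).symm)
  · by_cases e2 : ((g * c : G) : Ch T) = a
    · exact n2 ((k1 e1).trans (k3 (e2 ▸ n3.symm)).symm)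
    · exact n1 ((k1 e1).trans (k2 e2).symm)

theorem exists_gen_ne (x : Ch T) (i : ι) (a : Ch T) : ∃ z, δ x z = 𝐬 i ∧ z ≠ a := by
  obtain ⟨z, h1, h2, h3⟩ := exists_ne_two x i x a
  exact ⟨z, h1.dist_eq h2.symm, h3⟩

/-- Induction along reduced galleries in a residue. -/
theorem Rs.induction {J : Set ι} {x : Ch T} {P : Ch T → Prop} (h0 : P x)
    (h1 : ∀ y z, ∀ j ∈ J, Rs T J x y → δ y z = 𝐬 j → ¬ RD 𝐬 (δ x y) j → P y → P z) {y : Ch T}
    (hy : Rs T J x y) : P y := by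
  suffices H : ∀ w ∈ WJ 𝐬 J, ∀ y, δ x y = w → P y from H _ hy y rfl
  intro w hw
  refine WJ_induction T.cox (P := fun w => ∀ y, δ x y = w → P y)
    (fun y h => dist_eq_one.1 h ▸ h0) (fun w hw k hk hd ih z hz => ?_) hw
  obtain ⟨y, e1, e2⟩ := exists_mid hz
  exact h1 y z k hk (by rwa [Rs, e1]) e2 (e1 ▸ hd) (ih y e1)

/-! ### The standard apartment -/

theorem dist_ap (v w : W) : δ (ap T v) (ap T w) = v⁻¹ * w := by
  obtain ⟨h1, h2⟩ := (T.exists_N v).choose_spec
  obtain ⟨h3, h4⟩ := (T.exists_N w).choose_spec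
  rw [ap, ap, dist_mk, T.wt_N_mul (inv_mem h1) h3, T.wt_inv, h2, h4]

theorem dist_ap_mul (v w : W) : δ (ap T v) (ap T (v * w)) = w := by
  rw [dist_ap, inv_mul_cancel_left]

theorem dist_ap_one (w : W) : δ (ap T 1) (ap T w) = w := by
  rw [dist_ap, inv_one, one_mul]

theorem ap_injective : Function.Injective (ap T) := fun v w h => by
  have := dist_ap (T := T) v w
  rw [h, dist_self] at this
  exact inv_mul_eq_one.1 this.symm

theorem rs_ap {J : Set ι} {v w : W} : Rs T J (ap T v) (ap T w) ↔ v⁻¹ * w ∈ WJ 𝐬 J := by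
  rw [Rs, dist_ap]

theorem rs_ap_mul {J : Set ι} (v : W) {w : W} (hw : w ∈ WJ 𝐬 J) :
    Rs T J (ap T v) (ap T (v * w)) := by
  rwa [Rs, dist_ap_mul]

theorem rs_ap_one {J : Set ι} {w : W} (hw : w ∈ WJ 𝐬 J) : Rs T J (ap T 1) (ap T w) := by
  rwa [Rs, dist_ap_one]

theorem ap_one : ap T 1 = ((1 : G) : Ch T) := by
  rw [ap, eq_comm, QuotientGroup.eq, inv_one, one_mul, ← T.wt_eq_one]
  exact (T.exists_N 1).choose_spec.2

theorem mv_of_mem_N {n : G} (hn : n ∈ T.N) : Mv T n (T.wt n) := fun v => by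
  obtain ⟨h1, h2⟩ := (T.exists_N v).choose_spec
  obtain ⟨h3, h4⟩ := (T.exists_N (T.wt n * v)).choose_spec
  rw [← dist_eq_one, ap, ap, smul_mk, dist_mk, T.wt_N_mul (inv_mem (mul_mem hn h1)) h3, T.wt_inv,
    T.wt_N_mul hn h1, h2, h4, inv_mul_cancel]

variable (T) in
theorem exists_mv (w : W) : ∃ n, Mv T n w := by
  obtain ⟨n, hn, rfl⟩ := T.exists_N w
  exact ⟨n, mv_of_mem_N hn⟩

theorem Mv.one : Mv T 1 1 := fun v => by rw [one_smul, one_mul]

theorem Mv.mul {g g' : G} {w w' : W} (h : Mv T g w) (h' : Mv T g' w') : Mv T (g * g') (w * w') :=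
  fun v => by rw [mul_smul, h', h, mul_assoc]

theorem Mv.inv {g : G} {w : W} (h : Mv T g w) : Mv T g⁻¹ w⁻¹ := fun v => by
  rw [inv_smul_eq_iff, h, mul_inv_cancel_left]

theorem Mv.unique {g : G} {w w' : W} (h : Mv T g w) (h' : Mv T g w') : w = w' := by
  simpa using ap_injective ((h 1).symm.trans (h' 1))

theorem Mv.fix {g : G} (h : Mv T g 1) (v : W) : g • ap T v = ap T v := by rw [h, one_mul]

theorem mv_one_of {g : G} (h : ∀ v, g • ap T v = ap T v) : Mv T g 1 := fun v => by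
  rw [h, one_mul]

theorem eq_ap_of_btw {x y z : W} (hb : Btw 𝐬 x y z) {c : Ch T} (h1 : δ (ap T x) c = x⁻¹ * y)
    (h2 : δ c (ap T z) = y⁻¹ * z) : c = ap T y :=
  mid_unique (h1.trans (dist_ap x y).symm) (h2.trans (dist_ap y z).symm) (by
    rw [h1, h2, ← hb]; congr 1; group)

theorem smul_ap_of_btw {g : G} {v x y z : W} (hb : Btw 𝐬 x y z) (hx : g • ap T x = ap T (v * x))
    (hz : g • ap T z = ap T (v * z)) : g • ap T y = ap T (v * y) :=
  eq_ap_of_btw (hb.mul v) (by rw [← hx, dist_smul, dist_ap]; group)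
    (by rw [← hz, dist_smul, dist_ap]; group)

theorem fix_of_btw {g : G} {x y z : W} (hb : Btw 𝐬 x y z) (hx : g • ap T x = ap T x)
    (hz : g • ap T z = ap T z) : g • ap T y = ap T y := by
  have := smul_ap_of_btw (T := T) (g := g) (v := 1) hb (by rwa [one_mul]) (by rwa [one_mul])
  rwa [one_mul] at this

theorem smul_ap_of_top {J : Set ι} {g : G} {v x w : W} (hw : IsTop 𝐬 J w)
    (hx : g • ap T x = ap T (v * x)) (hz : g • ap T (x * w) = ap T (v * (x * w))) {y : W}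
    (hy : x⁻¹ * y ∈ WJ 𝐬 J) : g • ap T y = ap T (v * y) :=
  smul_ap_of_btw (btw_top T.cox hw hy) hx hz

theorem mv_of_top {g : G} {v x w : W} (hw : IsTop 𝐬 Set.univ w)
    (hx : g • ap T x = ap T (v * x)) (hz : g • ap T (x * w) = ap T (v * (x * w))) : Mv T g v :=
  fun _ => smul_ap_of_top hw hx hz (by rw [T.cox.WJ_univ]; trivial)

theorem mv_one_of_top {g : G} {x w : W} (hw : IsTop 𝐬 Set.univ w)
    (hx : g • ap T x = ap T x) (hz : g • ap T (x * w) = ap T (x * w)) : Mv T g 1 :=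
  mv_of_top (x := x) hw (by rwa [one_mul]) (by rwa [one_mul])

/-! ### Rigidity -/

theorem FixR.self {φ : Ch T → Ch T} {x : Ch T} {J : Set ι} (h : FixR T φ x J) : φ x = x :=
  h x (Rs.refl J x)

theorem FixR.mono {φ : Ch T → Ch T} {x y : Ch T} {J K : Set ι} (h : FixR T φ x J) (hK : K ⊆ J)
    (hy : Rs T J x y) : FixR T φ y K := fun z hz => h z (hy.trans (hz.mono hK))

theorem FixR.of_rs {φ : Ch T → Ch T} {x y : Ch T} {J : Set ι} (h : FixR T φ x J)
    (hy : Rs T J x y) : FixR T φ y J := h.mono le_rfl hy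

theorem fixR_one {φ : Ch T → Ch T} {x : Ch T} {i : ι} (h0 : φ x = x)
    (h : ∀ y, δ x y = 𝐬 i → φ y = y) : FixR T φ x {i} := fun y hy =>
  (rs_one.1 hy).elim (fun e => e ▸ h0) (h y)

theorem FixR.mul {g g' : G} {x : Ch T} {J : Set ι} (h : FixR T (g • ·) x J)
    (h' : FixR T (g' • ·) x J) : FixR T ((g * g') • ·) x J := fun y hy => by
  change (g * g') • y = y
  rw [mul_smul, show g' • y = y from h' y hy]; exact h y hy

theorem FixR.inv {g : G} {x : Ch T} {J : Set ι} (h : FixR T (g • ·) x J) :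
    FixR T (g⁻¹ • ·) x J := fun y hy => inv_smul_eq_iff.2 (h y hy).symm

theorem FixR.conj {g : G} {x : Ch T} {J : Set ι} (h : FixR T (g • ·) x J) (n : G) :
    FixR T ((n * g * n⁻¹) • ·) (n • x) J := fun y hy => by
  change (n * g * n⁻¹) • y = y
  rw [mul_smul, mul_smul, show g • n⁻¹ • y = n⁻¹ • y from
    h _ (by rwa [← rs_smul n, smul_inv_smul]), smul_inv_smul]

theorem fixR_one_smul (x : Ch T) (J : Set ι) : FixR T ((1 : G) • ·) x J := fun y _ => one_smul _ y

theorem isTop_dist_symm {J : Set ι} {x y : Ch T} (h : IsTop 𝐬 J (δ x y)) : IsTop 𝐬 J (δ y x) := by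
  rw [dist_comm]; exact T.cox.isTop_inv h

section Rigid

variable {φ : Ch T → Ch T} {J : Set ι} {c : Ch T}
  (hφ : ∀ y z, Rs T J c y → Rs T J c z → δ (φ y) (φ z) = δ y z)
include hφ

/-- A panel is fixed chamberwise if an opposite panel is. -/
theorem fixR_of_opp {x y : Ch T} (hx : Rs T J c x) (ht : IsTop 𝐬 J (δ x y)) (hy : φ y = y) {i j : ι}
    (hj : j ∈ J) (e : 𝐬 i * δ x y = δ x y * 𝐬 j) (h : FixR T φ x {i}) (hi : i ∈ J) :
    FixR T φ y {j} := by
  have hcy := hx.trans ht.1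
  refine fixR_one hy fun z hz => ?_
  have hcz := hcy.trans (rs_of_gen hj hz)
  have key : ∀ x', Rs T {i} x x' → ¬ RD 𝐬 (δ x' z) j → φ z = z := fun x' h1 h2 => by
    have h3 := hx.trans (h1.mono (Set.singleton_subset_iff.2 hi))
    refine gate_unique_one (x := x') (by rwa [← h x' h1, hφ _ _ h3 hcz]) h2 ?_
    refine Rs.trans (y := y) (rs_gen ?_) (rs_gen hz)
    rw [← hy, hφ _ _ hcz hcy]; exact dist_gen_symm hz
  have h4 : ¬ RD 𝐬 (δ x y * 𝐬 j) j := fun h4 => T.cox.RD_mul_gen.1 h4 (ht.2 j hj)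
  rcases dist_right_gen hz x with e1 | e1
  · exact key x (Rs.refl _ _) (e1 ▸ h4)
  · obtain ⟨x', h5, h6⟩ := exists_mid (x := x) (z := z) (u := 𝐬 i) (v := δ x y * 𝐬 j)
      (by rw [e1, ← e, cancel_l T.cox])
    exact key x' (rs_gen h5) (h6 ▸ h4)

theorem fixR_all_of_opp {x y : Ch T} (hx : Rs T J c x) (ht : IsTop 𝐬 J (δ x y)) (hy : φ y = y)
    (h : ∀ j ∈ J, FixR T φ x {j}) : ∀ j ∈ J, FixR T φ y {j} := fun j hj => by
  obtain ⟨i, hi, e⟩ := exists_conj_top' T.cox ht hj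
  exact fixR_of_opp hφ hx ht hy hj e (h i hi) hi

/-- Rigidity: an isometry of a residue fixing a chamber, its neighbours and an opposite chamber is
the identity. -/
theorem rigid (h0 : φ c = c) (h1 : ∀ j ∈ J, FixR T φ c {j}) {y : Ch T} (ht : IsTop 𝐬 J (δ c y))
    (hy : φ y = y) : FixR T φ c J := by
  intro x hx
  refine (Rs.induction (P := fun x => φ x = x ∧ (∀ j ∈ J, FixR T φ x {j}) ∧
    ∃ y, IsTop 𝐬 J (δ x y) ∧ φ y = y) ⟨h0, h1, y, ht, hy⟩ ?_ hx).1
  rintro x x' j hj hx hxx - ⟨-, h1, y, ht, hy⟩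
  have hx' := hx.trans (rs_of_gen hj hxx)
  have h0' : φ x' = x' := h1 j hj x' (rs_gen hxx)
  obtain ⟨k, hk, e⟩ := exists_conj_top T.cox ht hj
  obtain ⟨a, ha, ha'⟩ := exists_gate {k} x y
  obtain ⟨b, hb, hb'⟩ := exists_gate {k} x' y
  obtain ⟨z, hz, hza, hzb⟩ := exists_ne_two y k a b
  have hz0 : φ z = z := fixR_all_of_opp hφ hx ht hy h1 k hk z hz
  have key : ∀ u v, Rs T {k} y v → (∀ j ∈ ({k} : Set ι), ¬ RD 𝐬 (δ u v) j) → z ≠ v →
      (δ u y = δ x y ∨ δ u y = δ x y * 𝐬 k) → IsTop 𝐬 J (δ u z) := by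
    intro u v h2 h3 h4 h5
    have h6 : RD 𝐬 (δ u z) k := by
      by_contra h6
      exact h4 (gate_unique_one h6 (h3 k rfl) (hz.symm.trans h2))
    obtain ⟨t, ht', e1⟩ := hz.exists_right u
    have h7 : δ u z = δ x y ∨ δ u z = δ x y * 𝐬 k := by
      rcases (mem_WJ_one T.cox).1 ht' with rfl | rfl <;> rcases h5 with h5 | h5 <;> rw [e1, h5]
      exacts [Or.inl (mul_one _), Or.inr (mul_one _), Or.inr rfl, Or.inl (cancel_r T.cox _ _)]
    rcases h7 with h7 | h7
    · exact h7 ▸ ht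
    · exact absurd (ht.2 k hk) (T.cox.RD_mul_gen.1 (h7 ▸ h6))
  have t1 := key x a ha ha' hza (Or.inl rfl)
  have t2 := key x' b hb hb' hzb (by
    rcases dist_left_gen (dist_gen_symm hxx) y with e1 | e1
    · exact Or.inr (e1.trans e)
    · exact Or.inl e1)
  exact ⟨h0', fixR_all_of_opp hφ (hx.trans t1.1) (isTop_dist_symm t2) h0'
    (fixR_all_of_opp hφ hx t1 hz0 h1), z, t2, hz0⟩

end Rigid

theorem rigid_smul {g : G} {J : Set ι} {c y : Ch T} (h0 : g • c = c)
    (h1 : ∀ j ∈ J, FixR T (g • ·) c {j}) (ht : IsTop 𝐬 J (δ c y)) (hy : g • y = y) :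
    FixR T (g • ·) c J :=
  rigid (fun y z _ _ => dist_smul g y z) h0 h1 ht hy

theorem rigid_ap [Finite W] {g : G} {J : Set ι} {x : W}
    (h0 : ∀ v ∈ WJ 𝐬 J, g • ap T (x * v) = ap T (x * v))
    (h1 : ∀ j ∈ J, FixR T (g • ·) (ap T x) {j}) : FixR T (g • ·) (ap T x) J := by
  obtain ⟨w, hw⟩ := T.cox.exists_isTop J
  exact rigid_smul (by simpa using h0 1 (one_mem _)) h1 (y := ap T (x * w))
    (by rwa [dist_ap_mul]) (h0 w hw.1)

/-- Parallel panels in a residue of type `A₁ × A₁`. -/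
theorem FixR.parallel {g : G} {x y : Ch T} {i j : ι} (h : FixR T (g • ·) x {i}) (hij : i ≠ j)
    (hc : 𝐬 i * 𝐬 j = 𝐬 j * 𝐬 i) (hxy : δ x y = 𝐬 j) (hy : g • y = y) : FixR T (g • ·) y {i} := by
  refine fixR_one hy fun z hz => ?_
  have h1 : δ x z = 𝐬 i * 𝐬 j := by
    rw [dist_right_up hz (by rw [hxy, RD_gen T.cox]; exact hij), hxy, hc]
  obtain ⟨x', h2, h3⟩ := exists_mid h1
  have h4 : ¬ RD 𝐬 (δ x' z) i := by rw [h3, RD_gen T.cox]; exact hij
  refine gate_unique_one (x := x') ?_ h4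
    (Rs.trans (y := y) (rs_gen ?_) (rs_gen hz))
  · rwa [dist_of_fix (h x' (rs_gen h2))]
  · rw [dist_comm, dist_of_fix hy, hz, gen_inv T.cox]

end Cfsg.Agent.BNP
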