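import Mathlib
import Cfsg.Agent.St.Tits

/-!
Definitions for the classification of finite groups with an irreducible BN-pair of rank at least
three: Coxeter matrices, models, and the algebraic data attached to a double bond.
-/

set_option autoImplicit false

namespace Cfsg.Agent.BNP

open Cfsg.Agent.St

/-- Coxeter matrix of type `A_n`: a path. -/
def mA (n : ℕ) (i j : Fin n) : ℕ :=
  if i = j then 1 else if i.val + 1 = j.val ∨ j.val + 1 = i.val then 3 else 2

/-- Coxeter matrix of type `C_n`: a path whose last edge is a double bond. -/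
def mC (n : ℕ) (i j : Fin n) : ℕ :=
  if i = j then 1 else if i.val + 1 = j.val ∨ j.val + 1 = i.val then
    (if i.val + 1 = n ∨ j.val + 1 = n then 4 else 3) else 2

/-- Coxeter matrix of type `D_n`: nodes `0, …, n - 2` form a path, `n - 1` is joined to `n - 3`. -/
def mD (n : ℕ) (i j : Fin n) : ℕ :=
  if i = j then 1 else if (j.val = i.val + 1 ∧ j.val + 2 ≤ n) ∨ (i.val = j.val + 1 ∧ i.val + 2 ≤ n) ∨
    (i.val + 3 = n ∧ j.val + 1 = n) ∨ (j.val + 3 = n ∧ i.val + 1 = n) then 3 else 2

/-- Coxeter matrix of type `E_n` (Bourbaki labelling, shifted to start at `0`). -/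
def mE (n : ℕ) (i j : Fin n) : ℕ :=
  if i = j then 1 else if (i.val = 0 ∧ j.val = 2) ∨ (i.val = 2 ∧ j.val = 0) ∨
    (i.val = 1 ∧ j.val = 3) ∨ (i.val = 3 ∧ j.val = 1) ∨ (2 ≤ i.val ∧ j.val = i.val + 1) ∨
    (2 ≤ j.val ∧ i.val = j.val + 1) then 3 else 2

/-- Coxeter matrix of type `F_4`: the path `0 - 1 = 2 - 3`. -/
def mF (i j : Fin 4) : ℕ :=
  if i = j then 1 else if i.val + 1 = j.val ∨ j.val + 1 = i.val then
    (if i.val + j.val = 3 then 4 else 3) else 2

/-- Panel parameters of type `C_n`: `q` on the first `n - 1` nodes and `t` on the last one. -/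
def szC (n q t : ℕ) (i : Fin n) : ℕ := if i.val + 1 = n then t else q

/-- `G` has a Tits system with Coxeter matrix `M` whose panels of type `i` have `sz i + 1`
chambers. -/
def HasModel (G : Type) [Group G] {n : ℕ} (M : Fin n → Fin n → ℕ) (sz : Fin n → ℕ) : Prop :=
  ∃ (W : Type) (_ : Group W) (T : Tits G (Fin n) W),
    (∀ i j, orderOf (T.s i * T.s j) = M i j) ∧ ∀ i, T.B.relIndex (T.par {i}) = sz i + 1

/-- The algebraic data describing the commutator relations at a double bond of a diagram of type
`C_3`. -/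
structure DB (F X : Type*) [Field F] [Group X] where
  /-- the action of scalars -/
  act : X → F → X
  /-- the (pseudo-)quadratic form -/
  a : X → F
  /-- the sesquilinear form -/
  f : X → X → F
  /-- the commutator map of the two linear root groups -/
  T : F → F → X
  /-- the field automorphism -/
  σ : F →+* F
  act_one : ∀ v, act v 1 = v
  act_mul : ∀ v w l, act (v * w) l = act v l * act w l
  act_act : ∀ v l k, act (act v l) k = act v (l * k)
  act_add : ∀ v l k, act v (l + k) = act v k * T l (a v * k) * act v l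
  act_zero : ∀ v, act v 0 = 1
  a_mul : ∀ v w, a (v * w) = a v + a w - f w v
  a_eq_zero : ∀ v, a v = 0 → v = 1
  a_act : ∀ v l, a (act v l) = l * σ l * a v
  f_mul_left : ∀ u u' v, f (u * u') v = f u v + f u' v
  f_mul_right : ∀ u v v', f u (v * v') = f u v + f u v'
  f_act_left : ∀ u v l, f (act u l) v = l * f u v
  f_act_right : ∀ u v l, f u (act v l) = σ l * f u v
  T_add_left : ∀ l l' k, T (l + l') k = T l k * T l' k
  T_add_right : ∀ l k k', T l (k + k') = T l k * T l k'
  T_comm : ∀ l k v, T l k * v = v * T l k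
  f_T : ∀ l k v, f (T l k) v = 0

end Cfsg.Agent.BNP
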