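import Mathlib
import Cfsg.Agent.BNP.Basic

/-!
Levi subgroups (stabilisers of opposite residues) and root groups of a spherical Tits system.
-/

set_option autoImplicit false
set_option linter.unusedSectionVars false

namespace Cfsg.Agent.BNP

open Cfsg.Agent.Chev Cfsg.Agent.St
open scoped commutatorElement

variable {G ι W : Type*} [Group G] [Group W] (T : Tits G ι W)

set_option hygiene false in
local notation "δ" => dist T
set_option hygiene false in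
local notation "𝐬" => T.s
set_option hygiene false in
local notation "ℓ" => wlen T.s

/-- The pointwise stabiliser of a set of chambers of the standard apartment. -/
def Fx (A : Set W) : Subgroup G where
  carrier := {g | ∀ x ∈ A, g • ap T x = ap T x}
  one_mem' x _ := one_smul _ _
  mul_mem' ha hb x hx := by rw [mul_smul, hb x hx, ha x hx]
  inv_mem' ha x hx := inv_smul_eq_iff.2 (ha x hx).symm

/-- The kernel of the action on a residue. -/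
def Kr (x : Ch T) (J : Set ι) : Subgroup G where
  carrier := {g | FixR T (g • ·) x J}
  one_mem' := fixR_one_smul x J
  mul_mem' := FixR.mul
  inv_mem' := FixR.inv

/-- The elements fixing `A` and all panels of type in `J` in the interior of `A ∩ W_J`. -/
def XJ (J : Set ι) (A : Set W) : Subgroup G where
  carrier := {g | g ∈ Fx T A ∧
    ∀ x ∈ A, x ∈ WJ 𝐬 J → ∀ k ∈ J, x * 𝐬 k ∈ A → g ∈ Kr T (ap T x) {k}}
  one_mem' := ⟨one_mem _, fun _ _ _ _ _ _ => one_mem _⟩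
  mul_mem' ha hb := ⟨mul_mem ha.1 hb.1, fun x h1 h2 k h3 h4 =>
    mul_mem (ha.2 x h1 h2 k h3 h4) (hb.2 x h1 h2 k h3 h4)⟩
  inv_mem' ha := ⟨inv_mem ha.1, fun x h1 h2 k h3 h4 => inv_mem (ha.2 x h1 h2 k h3 h4)⟩

/-- The root group of `A`. -/
def X (A : Set W) : Subgroup G where
  carrier := {g | g ∈ Fx T A ∧ ∀ x ∈ A, ∀ k, x * 𝐬 k ∈ A → g ∈ Kr T (ap T x) {k}}
  one_mem' := ⟨one_mem _, fun _ _ _ _ => one_mem _⟩
  mul_mem' ha hb := ⟨mul_mem ha.1 hb.1, fun x h1 k h4 => mul_mem (ha.2 x h1 k h4) (hb.2 x h1 k h4)⟩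
  inv_mem' ha := ⟨inv_mem ha.1, fun x h1 k h4 => inv_mem (ha.2 x h1 k h4)⟩

/-- The number of chambers different from a given one in a panel of type `i`. -/
noncomputable def qq (i : ι) : ℕ := {y | δ (ap T 1) y = 𝐬 i}.ncard

/-- The action on the chambers is faithful. -/
def Faith : Prop := ∀ g : G, (∀ x : Ch T, g • x = x) → g = 1

/-- The Moufang condition for the simple root `α_i`. -/
def Mouf (i : ι) : Prop :=
  ∀ y, δ (ap T 1) y = 𝐬 i → ∃ g ∈ X T (rt 𝐬 1 i), g • ap T (𝐬 i) = y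

/-- The Moufang condition for `α_i` relative to the residue of type `J`. -/
def MoufJ (J : Set ι) (i : ι) : Prop :=
  ∀ y, δ (ap T 1) y = 𝐬 i → ∃ g ∈ XJ T J (rt 𝐬 1 i), g • ap T (𝐬 i) = y

variable {T}

theorem mem_Fx {A : Set W} {g : G} : g ∈ Fx T A ↔ ∀ x ∈ A, g • ap T x = ap T x := Iff.rfl

theorem mem_Kr {x : Ch T} {J : Set ι} {g : G} : g ∈ Kr T x J ↔ ∀ y, Rs T J x y → g • y = y :=
  Iff.rfl

theorem Kr_self {x : Ch T} {J : Set ι} {g : G} (h : g ∈ Kr T x J) : g • x = x := h x (Rs.refl J x)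

theorem Kr_mono {x y : Ch T} {J K : Set ι} (hK : K ⊆ J) (hy : Rs T J x y) : Kr T x J ≤ Kr T y K :=
  fun _ h => FixR.mono h hK hy

theorem Kr_congr {x y : Ch T} {J : Set ι} (hy : Rs T J x y) : Kr T x J = Kr T y J :=
  le_antisymm (Kr_mono le_rfl hy) (Kr_mono le_rfl hy.symm)

theorem conj_mem_Kr {x : Ch T} {J : Set ι} {g : G} (h : g ∈ Kr T x J) (n : G) :
    n * g * n⁻¹ ∈ Kr T (n • x) J := FixR.conj h n

theorem conj_mem_Kr' {x : Ch T} {J : Set ι} {g n : G} (h : g ∈ Kr T x J) (hn : Rs T J x (n • x)) :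
    n * g * n⁻¹ ∈ Kr T x J := by
  rw [Kr_congr hn]; exact conj_mem_Kr h n

theorem comm_mem_Kr {x : Ch T} {J : Set ι} {g n : G} (h : g ∈ Kr T x J) (hn : Rs T J x (n • x)) :
    ⁅g, n⁆ ∈ Kr T x J := by
  rw [commutatorElement_def, mul_assoc, mul_assoc, ← mul_assoc n]
  exact mul_mem h (conj_mem_Kr' (inv_mem h) hn)

theorem comm_mem_Kr' {x : Ch T} {J : Set ι} {g n : G} (h : g ∈ Kr T x J)
    (hn : Rs T J x (n • x)) : ⁅n, g⁆ ∈ Kr T x J := by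
  rw [← commutatorElement_inv]; exact inv_mem (comm_mem_Kr h hn)

theorem Faith.eq_one (hf : Faith T) {g : G} {x : Ch T} (h : g ∈ Kr T x Set.univ) : g = 1 :=
  hf g fun y => h y (rs_univ x y)

theorem Mv.conj_mem_Fx {n g : G} {w : W} (hn : Mv T n w) {A : Set W} (h : g ∈ Fx T A) :
    n * g * n⁻¹ ∈ Fx T (tr w A) := fun x hx => by
  rw [mul_smul, mul_smul, hn.inv, h _ hx, hn, mul_inv_cancel_left]

theorem Mv.conj_mem_Kr {n g : G} {w x : W} (hn : Mv T n w) {J : Set ι}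
    (h : g ∈ Kr T (ap T x) J) : n * g * n⁻¹ ∈ Kr T (ap T (w * x)) J := by
  rw [← hn]; exact BNP.conj_mem_Kr h n

theorem Mv.conj_mem_X {n g : G} {w : W} (hn : Mv T n w) {A : Set W} (h : g ∈ X T A) :
    n * g * n⁻¹ ∈ X T (tr w A) :=
  ⟨hn.conj_mem_Fx h.1, fun x hx k hk => by
    simpa using hn.conj_mem_Kr (h.2 _ hx k (by rwa [mul_assoc]))⟩

theorem Mv.conj_mem_X' {n g : G} {w : W} (hn : Mv T n w) {A : Set W} (h : g ∈ X T (tr w A)) :
    n⁻¹ * g * n ∈ X T A := by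
  have := hn.inv.conj_mem_X h
  rwa [tr_tr, inv_mul_cancel, tr_one, inv_inv] at this

theorem Mv.conj_mem_XJ {n g : G} {w : W} (hn : Mv T n w) {J : Set ι} (hw : w ∈ WJ 𝐬 J)
    {A : Set W} (h : g ∈ XJ T J A) : n * g * n⁻¹ ∈ XJ T J (tr w A) :=
  ⟨hn.conj_mem_Fx h.1, fun x hx hx' k hk hk' => by
    simpa using hn.conj_mem_Kr (h.2 _ hx (mul_mem (inv_mem hw) hx') k hk (by rwa [mul_assoc]))⟩

theorem conj_mem_X_of_Fx {A : Set W} {n g : G} (hn : n ∈ Fx T A) (h : g ∈ X T A) :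
    n * g * n⁻¹ ∈ X T A :=
  ⟨mul_mem (mul_mem hn h.1) (inv_mem hn), fun x hx k hk => by
    have := conj_mem_Kr (h.2 x hx k hk) n
    rwa [hn x hx] at this⟩

theorem conj_mem_XJ_of_Fx {J : Set ι} {A : Set W} {n g : G} (hn : n ∈ Fx T A)
    (h : g ∈ XJ T J A) : n * g * n⁻¹ ∈ XJ T J A :=
  ⟨mul_mem (mul_mem hn h.1) (inv_mem hn), fun x hx hx' k hk hk' => by
    have := conj_mem_Kr (h.2 x hx hx' k hk hk') n
    rwa [hn x hx] at this⟩

theorem X_le_XJ (J : Set ι) (A : Set W) : X T A ≤ XJ T J A :=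
  fun _ h => ⟨h.1, fun x h1 _ k _ h2 => h.2 x h1 k h2⟩

theorem XJ_anti {J K : Set ι} (hJ : J ⊆ K) (A : Set W) : XJ T K A ≤ XJ T J A :=
  fun _ h => ⟨h.1, fun x h1 h3 k h4 h2 => h.2 x h1 (WJ_mono hJ h3) k (hJ h4) h2⟩

theorem XJ_univ (A : Set W) : XJ T Set.univ A = X T A :=
  le_antisymm (fun _ h => ⟨h.1, fun x h1 k h2 =>
    h.2 x h1 (by rw [T.cox.WJ_univ]; trivial) k trivial h2⟩) (X_le_XJ _ _)

theorem Mv.mem_Fx {g : G} (h : Mv T g 1) (A : Set W) : g ∈ Fx T A := fun x _ => h.fix x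

theorem Mouf.moufJ {i : ι} (h : Mouf T i) (J : Set ι) : MoufJ T J i := fun y hy => by
  obtain ⟨g, h1, h2⟩ := h y hy
  exact ⟨g, X_le_XJ J _ h1, h2⟩

theorem MoufJ.anti {i : ι} {J K : Set ι} (h : MoufJ T K i) (hJ : J ⊆ K) : MoufJ T J i :=
  fun y hy => by
    obtain ⟨g, h1, h2⟩ := h y hy
    exact ⟨g, XJ_anti hJ _ h1, h2⟩

variable [Finite W]

variable (T) in
/-- The longest element of `W_J`. -/
@[irreducible] noncomputable def wJ (J : Set ι) : W := (T.cox.exists_isTop J).choose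

theorem isTop_wJ (J : Set ι) : IsTop 𝐬 J (wJ T J) := by
  unfold wJ; exact (T.cox.exists_isTop J).choose_spec

variable (T) in
/-- The longest element. -/
noncomputable abbrev w0 : W := wJ T Set.univ

theorem isTop_w0 : IsTop 𝐬 Set.univ (w0 T) := isTop_wJ _

theorem wJ_mem (J : Set ι) : wJ T J ∈ WJ 𝐬 J := (isTop_wJ J).1

theorem wJ_mul_self (J : Set ι) : wJ T J * wJ T J = 1 := top_mul_self T.cox (isTop_wJ J)

theorem wJ_inv (J : Set ι) : (wJ T J)⁻¹ = wJ T J := T.cox.inv_eq_of_isTop (isTop_wJ J)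

theorem wJ_cancel (J : Set ι) (x : W) : wJ T J * (wJ T J * x) = x := by
  rw [← mul_assoc, wJ_mul_self, one_mul]

theorem wJ_cancel' (J : Set ι) (x : W) : x * wJ T J * wJ T J = x := by
  rw [mul_assoc, wJ_mul_self, mul_one]

theorem wJ_one (i : ι) : wJ T {i} = 𝐬 i := T.cox.isTop_unique (isTop_wJ _) (isTop_gen T.cox i)

theorem wJ_pair (a b : ι) : wJ T {a, b} = av 𝐬 a b (orderOf (𝐬 a * 𝐬 b)) :=
  T.cox.isTop_unique (isTop_wJ _) (isTop_av T.cox a b)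

theorem mem_WJ_univ (x : W) : x ∈ WJ 𝐬 Set.univ := by rw [T.cox.WJ_univ]; trivial

variable (T) in
/-- The opposition involution. -/
@[irreducible] noncomputable def op (i : ι) : ι :=
  (exists_conj_top T.cox (isTop_w0 (T := T)) (Set.mem_univ i)).choose

theorem gen_mul_w0 (i : ι) : 𝐬 i * w0 T = w0 T * 𝐬 (op T i) := by
  unfold op; exact (exists_conj_top T.cox (isTop_w0 (T := T)) (Set.mem_univ i)).choose_spec.2

theorem conj_w0_mem {J : Set ι} {v : W} (hv : v ∈ WJ 𝐬 J) :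
    w0 T * v * w0 T ∈ WJ 𝐬 (op T '' J) := by
  refine WJ_induction T.cox (P := fun v => w0 T * v * w0 T ∈ WJ 𝐬 (op T '' J))
    (by rw [mul_one, wJ_mul_self]; exact one_mem _) (fun x _ k hk _ ih => ?_) hv
  rw [← mul_assoc, mul_assoc _ (𝐬 k), gen_mul_w0, ← mul_assoc]
  exact mul_mem ih (gen_mem_WJ ⟨k, hk, rfl⟩)

theorem conj_w0_mem' {J : Set ι} {v : W} (hv : v ∈ WJ 𝐬 (op T '' J)) :
    w0 T * v * w0 T ∈ WJ 𝐬 J := by
  refine WJ_induction T.cox (P := fun v => w0 T * v * w0 T ∈ WJ 𝐬 J)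
    (by rw [mul_one, wJ_mul_self]; exact one_mem _) ?_ hv
  rintro x - _ ⟨k, hk, rfl⟩ - ih
  rw [show w0 T * (x * 𝐬 (op T k)) * w0 T = w0 T * x * w0 T * (w0 T * 𝐬 (op T k) * w0 T) by
    simp only [mul_assoc, wJ_cancel], ← gen_mul_w0, wJ_cancel']
  exact mul_mem ih (gen_mem_WJ hk)

theorem RD_mul_w0 {x : W} {i : ι} : RD 𝐬 (x * w0 T) (op T i) ↔ ¬ RD 𝐬 x i := by
  have h1 := T.cox.wlen_mul_isTop isTop_w0 (mem_WJ_univ (T := T) x)
  have h2 := T.cox.wlen_mul_isTop isTop_w0 (mem_WJ_univ (T := T) (x * 𝐬 i))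
  rw [T.cox.RD_iff, T.cox.not_RD_iff, mul_assoc, ← gen_mul_w0, ← mul_assoc]
  omega

theorem LD_mul_w0 {x : W} {i : ι} : LD 𝐬 (x * w0 T) i ↔ ¬ LD 𝐬 x i :=
  LD_mul_top T.cox isTop_w0 (mem_WJ_univ x) trivial

theorem IsRt.mul_w0_mem {A : Set W} (hA : IsRt 𝐬 A) {x : W} : x * w0 T ∈ A ↔ x ∉ A :=
  (inJ_univ T.cox hA).mul_top_mem T.cox isTop_w0 (mem_WJ_univ x)

theorem not_RD_d {J : Set ι} : ∀ j ∈ op T '' J, ¬ RD 𝐬 (wJ T J * w0 T) j := by
  rintro _ ⟨j, hj, rfl⟩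
  rw [RD_mul_w0, not_not]; exact (isTop_wJ J).2 j hj

theorem not_LD_d {J : Set ι} : ∀ j ∈ J, ¬ LD 𝐬 (wJ T J * w0 T) j := fun j hj => by
  rw [LD_mul_w0, not_not]; exact T.cox.LD_of_isTop (isTop_wJ J) hj

variable (T) in
/-- The stabiliser of the standard residue of type `J` and the opposite residue. -/
def LJ (J : Set ι) : Subgroup G where
  carrier := {g | Rs T J (ap T 1) (g • ap T 1) ∧
    Rs T (op T '' J) (ap T (w0 T)) (g • ap T (w0 T))}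
  one_mem' := ⟨by rw [one_smul]; exact Rs.refl _ _, by rw [one_smul]; exact Rs.refl _ _⟩
  mul_mem' {a b} ha hb := ⟨by rw [mul_smul]; exact ha.1.trans ((rs_smul a).2 hb.1),
    by rw [mul_smul]; exact ha.2.trans ((rs_smul a).2 hb.2)⟩
  inv_mem' {a} ha := ⟨by rw [← rs_smul a, smul_inv_smul]; exact ha.1.symm,
    by rw [← rs_smul a, smul_inv_smul]; exact ha.2.symm⟩

theorem LJ_mono {J K : Set ι} (h : J ⊆ K) : LJ T J ≤ LJ T K :=
  fun _ hg => ⟨hg.1.mono h, hg.2.mono (Set.image_mono h)⟩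

theorem LJ_rs {J : Set ι} {g : G} (hg : g ∈ LJ T J) {y : Ch T} (hy : Rs T J (ap T 1) y) :
    Rs T J (ap T 1) (g • y) := hg.1.trans ((rs_smul g).2 hy)

theorem LJ_rs' {J : Set ι} {g : G} (hg : g ∈ LJ T J) {y : Ch T}
    (hy : Rs T (op T '' J) (ap T (w0 T)) y) : Rs T (op T '' J) (ap T (w0 T)) (g • y) :=
  hg.2.trans ((rs_smul g).2 hy)

theorem rs_ap_w0 {J : Set ι} {v : W} (hv : v ∈ WJ 𝐬 J) :
    Rs T (op T '' J) (ap T (w0 T)) (ap T (v * w0 T)) := by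
  rw [rs_ap, wJ_inv, ← mul_assoc]; exact conj_w0_mem hv

theorem mem_LJ_of {J : Set ι} {g : G} {u u' v v' : W} (hu : u ∈ WJ 𝐬 J) (hu' : u' ∈ WJ 𝐬 J)
    (hv : v ∈ WJ 𝐬 J) (hv' : v' ∈ WJ 𝐬 J) (h1 : g • ap T u = ap T u')
    (h2 : g • ap T (v * w0 T) = ap T (v' * w0 T)) : g ∈ LJ T J :=
  ⟨(rs_ap_one hu').trans (h1 ▸ (rs_smul g).2 (rs_ap_one hu).symm),
    (rs_ap_w0 hv').trans (h2 ▸ (rs_smul g).2 (rs_ap_w0 hv).symm)⟩

theorem Mv.mem_LJ {J : Set ι} {g : G} {v : W} (h : Mv T g v) (hv : v ∈ WJ 𝐬 J) : g ∈ LJ T J :=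
  mem_LJ_of (one_mem _) (mul_mem hv (one_mem _)) (one_mem _) hv (h 1) (by rw [one_mul, h])

theorem Fx_le_LJ {J : Set ι} {A : Set W} (hA : InJ 𝐬 J A) : Fx T A ≤ LJ T J := fun g hg => by
  obtain ⟨w, hw, i, hi, rfl⟩ := hA
  have h1 := mul_mem hw (gen_mem_WJ (s := 𝐬) hi)
  exact mem_LJ_of hw hw h1 h1 (hg _ (self_mem_rt T.cox w i))
    (hg _ ((isRt_rt w i).mul_w0_mem.2 (mul_gen_notMem_rt T.cox w i)))

theorem X_le_LJ {J : Set ι} {A : Set W} (hA : InJ 𝐬 J A) : X T A ≤ LJ T J :=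
  fun _ h => Fx_le_LJ hA h.1

theorem LJ_proj {J : Set ι} {g : G} (hg : g ∈ LJ T J) {v v' : W} (hv : v ∈ WJ 𝐬 J)
    (hv' : v' ∈ WJ 𝐬 J) (h : g • ap T (v * wJ T J) = ap T (v' * wJ T J)) :
    g • ap T (v * w0 T) = ap T (v' * w0 T) := by
  have e : ∀ v, δ (ap T (v * wJ T J)) (ap T (v * w0 T)) = wJ T J * w0 T := fun v => by
    rw [dist_ap, mul_inv_rev, wJ_inv, mul_assoc, inv_mul_cancel_left]
  refine gate_unique (J := op T '' J) (x := ap T (v' * wJ T J)) ?_ ?_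
    ((LJ_rs' hg (rs_ap_w0 hv)).symm.trans (rs_ap_w0 hv'))
  · rw [← h, dist_smul, e]; exact not_RD_d
  · rw [e]; exact not_RD_d

theorem mv_of_LJ {J : Set ι} {g : G} (hg : g ∈ LJ T J) {v x : W} (hv : v ∈ WJ 𝐬 J)
    (hx : x ∈ WJ 𝐬 J) (h1 : g • ap T x = ap T (v * x))
    (h2 : g • ap T (x * wJ T J) = ap T (v * (x * wJ T J))) : Mv T g v :=
  mv_of_top isTop_w0 h1 (by
    rw [← mul_assoc] at h2 ⊢; exact LJ_proj hg hx (mul_mem hv hx) h2)

theorem mv_one_of_LJ {J : Set ι} {g : G} (hg : g ∈ LJ T J) {x : W}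
    (hx : x ∈ WJ 𝐬 J) (h1 : g • ap T x = ap T x)
    (h2 : g • ap T (x * wJ T J) = ap T (x * wJ T J)) : Mv T g 1 :=
  mv_of_LJ hg (one_mem _) hx (by rwa [one_mul]) (by rwa [one_mul])

theorem btw_gen_w0 {i : ι} {x : W} (hx : x ∈ rt 𝐬 1 i) : Btw 𝐬 1 x (𝐬 i * w0 T) := by
  rw [mem_rt, inv_one, one_mul] at hx
  rw [btw_one]; exact UL.len_gen_top T isTop_w0 hx

theorem mem_Fx_of_ends {g : G} {i : ι} (h1 : g • ap T 1 = ap T 1)
    (h2 : g • ap T (𝐬 i * w0 T) = ap T (𝐬 i * w0 T)) : g ∈ Fx T (rt 𝐬 1 i) :=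
  fun _ hx => fix_of_btw (btw_gen_w0 hx) h1 h2

theorem mem_Fx_of_LJ {J : Set ι} {g : G} (hg : g ∈ LJ T J) {i : ι} (hi : i ∈ J)
    (h1 : g • ap T 1 = ap T 1) (h2 : g • ap T (𝐬 i * wJ T J) = ap T (𝐬 i * wJ T J)) :
    g ∈ Fx T (rt 𝐬 1 i) :=
  mem_Fx_of_ends h1 (LJ_proj hg (gen_mem_WJ hi) (gen_mem_WJ hi) h2)

/-- The Levi subgroup is strongly transitive on the residue. -/
theorem exists_LJ {J : Set ι} {x y : Ch T} (hx : Rs T J (ap T 1) x) (hy : Rs T J x y) :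
    ∃ g ∈ LJ T J, g • ap T 1 = x ∧ g • ap T (δ x y) = y := by
  obtain ⟨z, hz⟩ := exists_dist y ((δ x y)⁻¹ * wJ T J)
  have hb := btw_top T.cox (isTop_wJ J) (x := 1) (y := δ x y) (by rwa [inv_one, one_mul])
  rw [one_mul] at hb
  have h1 : δ x z = wJ T J := by
    rw [dist_add' rfl hz (by rw [mul_inv_cancel_left]; exact btw_one.1 hb), mul_inv_cancel_left]
  have h2 : Rs T J x z := by rw [Rs, h1]; exact wJ_mem J
  obtain ⟨z', h3, h4⟩ := exists_gate (op T '' J) z (ap T (w0 T))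
  have h5 : δ z z' = wJ T J * w0 T := by
    obtain ⟨u, hu, e⟩ := (hx.trans h2).symm.exists_left (ap T (w0 T))
    obtain ⟨u', hu', e'⟩ := h3.exists_right z
    rw [dist_ap_one] at e
    have e2 : δ z z' = wJ T J * w0 T * (w0 T * (wJ T J * u) * w0 T * u') := by
      rw [e', e]; simp only [mul_assoc, wJ_cancel]
    rw [e2, T.cox.eq_one_of_not_RD not_RD_d (mul_mem (conj_w0_mem (mul_mem (wJ_mem J) hu)) hu')
      (e2 ▸ h4), mul_one]
  have hb' := btw_top T.cox isTop_w0 (x := 1) (y := wJ T J) (mem_WJ_univ (T := T) _)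
  rw [one_mul] at hb'
  have h6 : δ x z' = w0 T := by
    rw [dist_add' h1 h5 (by rw [wJ_cancel, btw_one.1 hb', wJ_inv]), wJ_cancel]
  obtain ⟨g, g1, g2⟩ := exists_smul_eq ((dist_ap_one (w0 T)).trans h6.symm)
  have g3 : g⁻¹ • z = ap T (wJ T J) := eq_ap_of_btw hb'
    (by rw [← dist_smul g, g1, smul_inv_smul, h1, inv_one, one_mul])
    (by rw [← dist_smul g, g2, smul_inv_smul, h5, wJ_inv])
  refine ⟨g, ⟨g1 ▸ hx, g2 ▸ h3⟩, g1, ?_⟩
  rw [eq_comm, ← inv_smul_eq_iff]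
  exact eq_ap_of_btw hb (by rw [← dist_smul g, g1, smul_inv_smul, inv_one, one_mul])
    (by rw [← g3, dist_smul, hz])

theorem exists_Fx {i : ι} {y : Ch T} (hy : δ (ap T 1) y = 𝐬 i) :
    ∃ g ∈ Fx T (rt 𝐬 1 i), g • ap T (𝐬 i) = y := by
  have hl := T.cox.not_LD_iff.1 (UL.not_LD_gen_top T isTop_w0 i)
  have h1 : δ y (ap T (𝐬 i * w0 T)) = δ (ap T (𝐬 i)) (ap T (𝐬 i * w0 T)) := by
    rw [dist_ap_mul, dist_left_up (dist_gen_symm hy) (by
      rw [dist_ap_one]; exact UL.not_LD_gen_top T isTop_w0 i), dist_ap_one, cancel_l T.cox]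
  obtain ⟨g, g1, g2⟩ := exists_smul_eq h1.symm
  refine ⟨g, mem_Fx_of_ends ?_ g2, g1⟩
  refine mid_unique (x := y) (z := ap T (𝐬 i * w0 T)) ?_ ?_ ?_
  · rw [← g1, dist_smul, g1, dist_gen_symm hy, dist_ap, mul_one, gen_inv T.cox]
  · rw [← g2, dist_smul, g2]
  · rw [← g1, ← g2, dist_smul, dist_smul, dist_ap, dist_ap_one, mul_one, gen_inv T.cox, hl,
      T.cox.wlen_gen, add_comm]

theorem mv_one_of_Fx {i : ι} {g : G} (hg : g ∈ Fx T (rt 𝐬 1 i))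
    (h : g • ap T (𝐬 i) = ap T (𝐬 i)) : Mv T g 1 :=
  mv_one_of_top isTop_w0 h (hg _ ((isRt_rt 1 i).mul_w0_mem.2 (by
    rw [gen_mem_rt_one T.cox]; exact fun h => h rfl)))

theorem mem_Kr_of_mv {J : Set ι} {g : G} (h : Mv T g 1) {x : W}
    (h1 : ∀ j ∈ J, g ∈ Kr T (ap T x) {j}) : g ∈ Kr T (ap T x) J :=
  rigid_ap (fun _ _ => h.fix _) h1

/-- Relative root groups act semiregularly. -/
theorem mem_Kr_of_XJ {J : Set ι} {i j : ι} (hj : j ∈ J) (hc : 𝐬 i * 𝐬 j ≠ 𝐬 j * 𝐬 i) {g : G}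
    (hg : g ∈ XJ T J (rt 𝐬 1 i)) {y : Ch T} (hy : δ (ap T 1) y = 𝐬 i) (h : g • y = y) :
    g ∈ Kr T (ap T 1) J := by
  obtain ⟨n, hn, rfl⟩ := exists_Fx hy
  have h1 := conj_mem_XJ_of_Fx (inv_mem hn) hg
  have h2 : Mv T (n⁻¹ * g * n⁻¹⁻¹) 1 :=
    mv_one_of_Fx h1.1 (by rw [inv_inv, mul_smul, mul_smul, h, inv_smul_smul])
  have h3 := mem_Kr_of_mv (J := J) h2 (x := 𝐬 j) fun k hk => h1.2 _
    ((gen_mem_rt_one T.cox).2 (by rintro rfl; exact hc rfl)) (gen_mem_WJ hj) k hk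
    (gen_mul_gen_mem_rt T.cox hc k)
  rw [← Kr_congr (rs_ap_one (gen_mem_WJ hj))] at h3
  have := conj_mem_Kr h3 n
  rwa [hn _ (self_mem_rt T.cox 1 i), show n * (n⁻¹ * g * n⁻¹⁻¹) * n⁻¹ = g by group] at this

end Cfsg.Agent.BNP
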