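import Mathlib
import Cfsg.Agent.BNP.RootGrp
import Cfsg.Agent.BNP.Defs
import Cfsg.Agent.KSG.StSL

/-!
Structures describing rank two residues of type `A₂` and `C₂`, and graphs of isomorphisms of root
groups.
-/

set_option autoImplicit false
set_option linter.unusedSectionVars false

namespace Cfsg.Agent.BNP

open Cfsg.Agent.Chev Cfsg.Agent.St Cfsg.Agent.KSG
open scoped commutatorElement

variable {G ι W : Type*} [Group G] [Group W] (T : Tits G ι W) [Finite W]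

/-- The standard residue of type `J`. -/
def RJ (J : Set ι) : Type _ := {y : Ch T // Rs T J (ap T 1) y}

instance actRJ (J : Set ι) : MulAction (LJ T J) (RJ T J) where
  smul g y := ⟨g.1 • y.1, LJ_rs g.2 y.2⟩
  one_smul y := Subtype.ext (one_smul G y.1)
  mul_smul g h y := Subtype.ext (mul_smul g.1 h.1 y.1)

/-- The action of the Levi subgroup on the standard residue. -/
def rho (J : Set ι) : LJ T J →* Equiv.Perm (RJ T J) := MulAction.toPermHom _ _

theorem rho_eq_one {J : Set ι} {g : LJ T J} : rho T J g = 1 ↔ g.1 ∈ Kr T (ap T 1) J :=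
  ⟨fun h y hy => congrArg Subtype.val (Equiv.congr_fun h ⟨y, hy⟩),
    fun h => Equiv.ext fun y => Subtype.ext (h y.1 y.2)⟩

theorem rho_eq_iff {J : Set ι} {g g' : LJ T J} :
    rho T J g = rho T J g' ↔ g.1⁻¹ * g'.1 ∈ Kr T (ap T 1) J := by
  rw [← inv_mul_eq_one, ← map_inv, ← map_mul, rho_eq_one]; rfl

/-- The six roots of a subsystem of type `A₂`. -/
def rA (s : ι → W) (a b : ι) : Fin 3 → Fin 3 → Set W :=
  ![![∅, rt s 1 a, rt s (s a) b], ![(rt s 1 a)ᶜ, ∅, rt s 1 b],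
    ![(rt s (s a) b)ᶜ, (rt s 1 b)ᶜ, ∅]]

/-- Coordinates of a residue of type `A₂`: the elations are induced by the Levi subgroup. -/
structure PlaneSys (a b : ι) (F : Type) [Field F] where
  /-- lifts of the elations -/
  x : Fin 3 → Fin 3 → F → LJ T {a, b}
  st : StSL fun i j t => rho T {a, b} (x i j t)
  mem : ∀ i j, i ≠ j → ∀ t, (x i j t).1 ∈ XJ T {a, b} (rA T.s a b i j)
  surj : ∀ i j, i ≠ j → ∀ g ∈ XJ T {a, b} (rA T.s a b i j),
    ∃ t, g⁻¹ * (x i j t).1 ∈ Kr T (ap T 1) {a, b}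
  inj : ∀ i j, i ≠ j → ∀ t, (x i j t).1 ∈ Kr T (ap T 1) {a, b} → t = 0
  mouf_a : MoufJ T {a, b} a
  mouf_b : MoufJ T {a, b} b
  card_a : Nat.card F = qq T a
  card_b : Nat.card F = qq T b
  elat_a : ∀ (g : G) (k : ℕ) (y z : Ch T), g ^ ringChar F ^ k ∈ Kr T y {a, b} → g ∈ Kr T y {a} →
    dist T y z = T.s b → g • z = z → g ∈ Kr T y {b}
  elat_b : ∀ (g : G) (k : ℕ) (y z : Ch T), g ^ ringChar F ^ k ∈ Kr T y {a, b} → g ∈ Kr T y {b} →
    dist T y z = T.s a → g • z = z → g ∈ Kr T y {a}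

/-- Steinberg generators of the root groups of a subsystem of type `A₂`. -/
structure EdgeSys (a b : ι) (F : Type) [Field F] where
  /-- parametrisation of the root groups -/
  x : Fin 3 → Fin 3 → F → G
  st : StSL x
  mem : ∀ i j, i ≠ j → ∀ t, x i j t ∈ X T (rA T.s a b i j)
  surj : ∀ i j, i ≠ j → ∀ g ∈ X T (rA T.s a b i j), ∃ t, x i j t = g
  inj : ∀ i j, i ≠ j → ∀ t, x i j t = 1 → t = 0

/-- The commutator relations at a double bond `b = c` with a simple bond `a - b`. -/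
structure QuadSys (a b c : ι) (F : Type) [Field F] (E : EdgeSys T a b F) where
  /-- the algebraic data -/
  D : DB F (X T (rt T.s 1 c))
  /-- parametrisation of the second root group -/
  x2 : X T (rt T.s 1 c) → G
  /-- parametrisation of the third root group -/
  x3 : F → G
  x2_mul : ∀ u v, x2 (u * v) = x2 u * x2 v
  x3_add : ∀ l k, x3 (l + k) = x3 l * x3 k
  mem2 : ∀ v, x2 v ∈ X T (bt T.s b c 1)
  surj2 : ∀ g ∈ X T (bt T.s b c 1), ∃ v, x2 v = g
  inj2 : ∀ v, x2 v = 1 → v = 1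
  mem3 : ∀ l, x3 l ∈ X T (bt T.s b c 2)
  surj3 : ∀ g ∈ X T (bt T.s b c 2), ∃ l, x3 l = g
  inj3 : ∀ l, x3 l = 1 → l = 0
  r14 : ∀ l v, ⁅E.x 1 2 l, v.1⁆ = x2 (D.act v l) * x3 (D.a v * l)
  r24 : ∀ u v, ⁅x2 u, v.1⁆ = x3 (D.f u v)
  r13 : ∀ l k, ⁅E.x 1 2 l, x3 k⁆ = x2 (D.T l k)

/-- `Γ` is the graph of an isomorphism from `A` onto `A'`. -/
structure Graph {G G' : Type*} [Group G] [Group G'] (A : Subgroup G) (A' : Subgroup G')
    (Γ : Subgroup (G × G')) : Prop where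
  fst : ∀ g ∈ Γ, g.1 ∈ A
  snd : ∀ g ∈ Γ, g.2 ∈ A'
  iff : ∀ g ∈ Γ, g.1 = 1 ↔ g.2 = 1
  ex1 : ∀ x ∈ A, ∃ y, (x, y) ∈ Γ
  ex2 : ∀ y ∈ A', ∃ x, (x, y) ∈ Γ

variable {G' W' : Type*} [Group G'] [Group W'] (T' : Tits G' ι W') [Finite W']

/-- Compatible isomorphisms of the positive root groups of the rank two subsystem `{a, b}`. -/
structure Loc (a b : ι) (Γ : ℕ → Subgroup (G × G')) : Prop where
  gr : ∀ k < orderOf (T.s a * T.s b), Graph (X T (bt T.s a b k)) (X T' (bt T'.s a b k)) (Γ k)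
  cm : ∀ k r, k < r → r < orderOf (T.s a * T.s b) → ∀ x ∈ Γ k, ∀ y ∈ Γ r,
    ⁅x, y⁆ ∈ ⨆ (l : ℕ) (_ : k < l ∧ l < r), Γ l

/-- `Γ a` and `Γ b` extend to compatible isomorphisms in rank two. -/
def LocP (a b : ι) (A B : Subgroup (G × G')) : Prop :=
  ∃ Γ : ℕ → Subgroup (G × G'), Loc T T' a b Γ ∧ Γ 0 = A ∧ Γ (orderOf (T.s a * T.s b) - 1) = B

/-- A graph of simple root groups is compatible with the rank one structure. -/
def Rk1 (i : ι) (A : Subgroup (G × G')) : Prop :=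
  ∃ A' : Subgroup (G × G'), Graph (X T (rt T.s 1 i)ᶜ) (X T' (rt T'.s 1 i)ᶜ) A' ∧
    ∀ x ∈ A', ∀ y ∈ A, x.1 • ap T 1 = y.1 • ap T (T.s i) ↔ x.2 • ap T' 1 = y.2 • ap T' (T'.s i)

/-- The standing hypotheses: faithful, no isolated node, Moufang. -/
structure MH : Prop where
  faith : Faith T
  nb : ∀ i, ∃ j, T.s i * T.s j ≠ T.s j * T.s i
  mouf : ∀ i, Mouf T i

end Cfsg.Agent.BNP
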