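import Mathlib
import Cfsg.Agent.BNP.Sys

/-!
Moufang Tits systems: regularity of root groups, commutator relations, the elements `m(u)`.
-/

set_option autoImplicit false
set_option linter.unusedSectionVars false

namespace Cfsg.Agent.BNP

open Cfsg.Agent.Chev Cfsg.Agent.St
open scoped commutatorElement

variable {G ι W : Type*} [Group G] [Group W] {T : Tits G ι W} [Finite W]

set_option hygiene false in
local notation "δ" => dist T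
set_option hygiene false in
local notation "𝐬" => T.s
set_option hygiene false in
local notation "ℓ" => wlen T.s

theorem exists_Fx_rt {x : W} {i : ι} {y : Ch T} (hy : δ (ap T x) y = 𝐬 i) :
    ∃ g ∈ Fx T (rt 𝐬 x i), g • ap T (x * 𝐬 i) = y := by
  obtain ⟨n, hn⟩ := exists_mv T x
  obtain ⟨g, h1, h2⟩ := exists_Fx (i := i) (y := n⁻¹ • y) (by
    rw [← dist_smul n, smul_inv_smul, hn, mul_one, hy])
  refine ⟨n * g * n⁻¹, by simpa [tr_rt] using hn.conj_mem_Fx h1, ?_⟩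
  rw [mul_smul, mul_smul, hn.inv, inv_mul_cancel_left, h2, smul_inv_smul]

theorem mv_one_of_Fx_rt {A : Set W} (hA : IsRt 𝐬 A) {g : G} (hg : g ∈ Fx T A) {x : W} (hx : x ∉ A)
    (h : g • ap T x = ap T x) : Mv T g 1 :=
  mv_one_of_top isTop_w0 h (hg _ (hA.mul_w0_mem.2 hx))

/-- A subgroup of the fixator of a root transitive on one boundary panel is transitive on all. -/
theorem trans_of_trans {A : Set W} {Y : Subgroup G} (hY : Y ≤ Fx T A) {x x' : W} {i i' : ι}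
    (e : rt 𝐬 x i = A) (e' : rt 𝐬 x' i' = A)
    (h : ∀ y, δ (ap T x) y = 𝐬 i → ∃ g ∈ Y, g • ap T (x * 𝐬 i) = y) {y : Ch T}
    (hy : δ (ap T x') y = 𝐬 i') : ∃ g ∈ Y, g • ap T (x' * 𝐬 i') = y := by
  obtain ⟨d, h1, h2⟩ := exists_Fx_rt hy
  rw [e'] at h1
  obtain ⟨g, h3, h4⟩ := h (d • ap T (x * 𝐬 i)) (by
    rw [dist_of_fix (h1 x (e ▸ self_mem_rt T.cox x i)), dist_ap_mul])
  have h5 : Mv T (d⁻¹ * g) 1 := mv_one_of_Fx_rt (e ▸ isRt_rt x i) (mul_mem (inv_mem h1) (hY h3))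
    (e ▸ mul_gen_notMem_rt T.cox x i) (by rw [mul_smul, h4, inv_smul_smul])
  refine ⟨g, h3, ?_⟩
  rw [← h2, ← inv_smul_eq_iff, ← mul_smul, h5.fix]

theorem Mouf.exists_X {j : ι} (h : Mouf T j) {x : W} {i : ι} {w : W} (e : rt 𝐬 x i = rt 𝐬 w j)
    {y : Ch T} (hy : δ (ap T x) y = 𝐬 i) : ∃ g ∈ X T (rt 𝐬 x i), g • ap T (x * 𝐬 i) = y := by
  refine trans_of_trans (Y := X T (rt 𝐬 x i)) (fun _ h => h.1) e.symm rfl (fun y hy => ?_) hy
  obtain ⟨n, hn⟩ := exists_mv T w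
  obtain ⟨g, h1, h2⟩ := h (n⁻¹ • y) (by rw [← dist_smul n, smul_inv_smul, hn, mul_one, hy])
  refine ⟨n * g * n⁻¹, by simpa [tr_rt, e] using hn.conj_mem_X h1, ?_⟩
  rw [mul_smul, mul_smul, hn.inv, inv_mul_cancel_left, h2, smul_inv_smul]

theorem Mouf.of_rt_eq {i j : ι} (h : Mouf T j) {w : W} (e : rt 𝐬 1 i = rt 𝐬 w j) : Mouf T i :=
  fun _ hy => by simpa using h.exists_X e hy

/-- The Moufang condition passes along simple bonds. -/
theorem Mouf.of_three {i j : ι} (h : Mouf T j) (h3 : orderOf (𝐬 j * 𝐬 i) = 3) : Mouf T i :=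
  h.of_rt_eq (w := 𝐬 j * 𝐬 i) (by
    rw [← bt_two, ← bt_zero i j]; exact bt_symm T.cox (by omega))

theorem mv_gen_of_LJ {i : ι} {g : G} (hg : g ∈ LJ T {i}) (h1 : g • ap T 1 = ap T (𝐬 i))
    (h2 : g • ap T (𝐬 i) = ap T 1) : Mv T g (𝐬 i) :=
  mv_of_LJ hg (gen_mem_WJ rfl) (one_mem _) (by rwa [mul_one])
    (by rwa [one_mul, wJ_one, T.cox.sq])

theorem inJ_one (i : ι) : InJ 𝐬 {i} (rt 𝐬 1 i) := inJ_rt (one_mem _) rfl

theorem rt_gen_self (i : ι) : rt 𝐬 (𝐬 i) i = (rt 𝐬 1 i)ᶜ := by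
  rw [← rt_mul_gen T.cox, one_mul]

theorem tr_gen_rt (i : ι) : tr (𝐬 i) (rt 𝐬 1 i) = (rt 𝐬 1 i)ᶜ := by
  rw [tr_rt, mul_one, rt_gen_self]

theorem tr_gen_rt_compl (i : ι) : tr (𝐬 i) (rt 𝐬 1 i)ᶜ = rt 𝐬 1 i := by
  rw [tr_compl, tr_gen_rt, compl_compl]

theorem gen_mem_compl (i : ι) : 𝐬 i ∈ (rt 𝐬 1 i)ᶜ := by
  rw [← rt_gen_self]; exact self_mem_rt T.cox _ _

theorem bt_add (a b : ι) (k j : ℕ) :
    bt 𝐬 a b (k + j) = tr (av 𝐬 a b k) (bt 𝐬 (lt a b k) (lt b a k) j) := by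
  induction k generalizing a b with
  | zero => simp [lt, tr_one]
  | succ k ih =>
    rw [show k + 1 + j = k + j + 1 by omega, bt_succ, ih, tr_tr, av_succ, lt_succ, lt_succ]

theorem ord_lt (a b : ι) (k : ℕ) :
    orderOf (𝐬 (lt a b k) * 𝐬 (lt b a k)) = orderOf (𝐬 a * 𝐬 b) := by
  rcases lt_cases a b k with ⟨h1, h2⟩ | ⟨h1, h2⟩ <;> rw [h1, h2]
  exact ord_comm T.cox a b

theorem bt_ord (a b : ι) : bt 𝐬 a b (orderOf (𝐬 a * 𝐬 b)) = (rt 𝐬 1 a)ᶜ := by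
  obtain ⟨k, hk⟩ := Nat.exists_eq_succ_of_ne_zero (ord_pos T.cox a b).ne'
  rw [hk, bt_succ, bt_symm T.cox (l := 0) (by omega), bt_zero, tr_gen_rt]

theorem bt_last (a b : ι) : bt 𝐬 a b (orderOf (𝐬 a * 𝐬 b) - 1) = rt 𝐬 1 b :=
  (bt_symm T.cox (k := 0) (by have := ord_pos T.cox a b; omega)).symm

variable (T) in
/-- The group generated by the root groups of the roots containing `v` but not `z`. -/
def UU (v z : W) : Subgroup G := ⨆ (A : Set W) (_ : IsRt 𝐬 A ∧ v ∈ A ∧ z ∉ A), X T A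

theorem X_le_UU {v z : W} {A : Set W} (hA : IsRt 𝐬 A) (h1 : v ∈ A) (h2 : z ∉ A) :
    X T A ≤ UU T v z := le_iSup₂_of_le (f := fun A (_ : IsRt 𝐬 A ∧ v ∈ A ∧ z ∉ A) => X T A) A
      ⟨hA, h1, h2⟩ le_rfl

theorem UU_le {v z : W} {K : Subgroup G} (h : ∀ A, IsRt 𝐬 A → v ∈ A → z ∉ A → X T A ≤ K) :
    UU T v z ≤ K := iSup₂_le fun A hA => h A hA.1 hA.2.1 hA.2.2

theorem UU_le_Fx {v z : W} {S : Set W} (h : ∀ A, IsRt 𝐬 A → v ∈ A → z ∉ A → S ⊆ A) :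
    UU T v z ≤ Fx T S := UU_le fun A h1 h2 h3 _ hg x hx => hg.1 x (h A h1 h2 h3 hx)

namespace MH

variable (M : MH T)
include M

theorem eq_one {x : W} {i : ι} {g : G} (hg : g ∈ X T (rt 𝐬 x i)) {y : Ch T}
    (hy : δ (ap T x) y = 𝐬 i) (h : g • y = y) : g = 1 := by
  obtain ⟨n, hn⟩ := exists_mv T x
  obtain ⟨j, hj⟩ := M.nb i
  have h1 : n⁻¹ * g * n ∈ X T (rt 𝐬 1 i) := hn.conj_mem_X' (by rwa [tr_rt, mul_one])
  have := M.faith.eq_one (mem_Kr_of_XJ (Set.mem_univ j) hj (X_le_XJ _ _ h1) (y := n⁻¹ • y)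
    (by rw [← dist_smul n, smul_inv_smul, hn, mul_one, hy])
    (by rw [mul_smul, mul_smul, smul_inv_smul, h]))
  simpa [mul_assoc, inv_mul_eq_iff_eq_mul] using this

theorem eq_one_of_fix {A : Set W} (hA : IsRt 𝐬 A) {g : G} (hg : g ∈ X T A) {z : W} (hz : z ∉ A)
    (h : g • ap T z = ap T z) : g = 1 := by
  have := mv_one_of_Fx_rt hA hg.1 hz h
  obtain ⟨x, i, rfl⟩ := hA
  exact M.eq_one hg (dist_ap_mul x _) (this.fix _)

theorem eq_of_smul_eq {x : W} {i : ι} {g g' : G} (hg : g ∈ X T (rt 𝐬 x i))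
    (hg' : g' ∈ X T (rt 𝐬 x i)) {y : Ch T} (hy : δ (ap T x) y = 𝐬 i) (h : g • y = g' • y) :
    g = g' := by
  have := M.eq_one (mul_mem (inv_mem hg') hg) hy (by rw [mul_smul, h, inv_smul_smul])
  rw [eq_comm, ← inv_mul_eq_one, this]

theorem exists_X {x : W} {i : ι} {y : Ch T} (hy : δ (ap T x) y = 𝐬 i) :
    ∃ g ∈ X T (rt 𝐬 x i), g • ap T (x * 𝐬 i) = y := (M.mouf i).exists_X rfl hy

theorem exists_X' {x : W} {i : ι} {y z : Ch T} (hy : δ (ap T x) y = 𝐬 i)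
    (hz : δ (ap T x) z = 𝐬 i) : ∃ g ∈ X T (rt 𝐬 x i), g • y = z := by
  obtain ⟨g, h1, rfl⟩ := M.exists_X hy
  obtain ⟨g', h2, rfl⟩ := M.exists_X hz
  exact ⟨g' * g⁻¹, mul_mem h2 (inv_mem h1), by rw [mul_smul, inv_smul_smul]⟩

theorem exists_ne_one {A : Set W} (hA : IsRt 𝐬 A) : ∃ g ∈ X T A, g ≠ 1 := by
  obtain ⟨x, i, rfl⟩ := hA
  obtain ⟨y, h1, h2⟩ := exists_gen_ne (ap T x) i (ap T (x * 𝐬 i))
  obtain ⟨g, h3, rfl⟩ := M.exists_X h1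
  exact ⟨g, h3, by rintro rfl; exact h2 (one_smul _ _)⟩

theorem card_X (x : W) (i : ι) : Nat.card (X T (rt 𝐬 x i)) = qq T i := by
  obtain ⟨n, hn⟩ := exists_mv T x
  refine Nat.card_congr (Equiv.ofBijective (fun g => ⟨n⁻¹ • g.1 • ap T (x * 𝐬 i), by
    change δ _ _ = _
    rw [← dist_smul n, smul_inv_smul, hn, mul_one,
      dist_of_fix (g.2.1 x (self_mem_rt T.cox x i)), dist_ap_mul]⟩) ⟨fun g g' h => ?_, ?_⟩)
  · exact Subtype.ext (M.eq_of_smul_eq g.2 g'.2 (dist_ap_mul x _)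
      (MulAction.injective _ (congrArg Subtype.val h)))
  · rintro ⟨y, hy⟩
    obtain ⟨g, h1, h2⟩ := M.exists_X (x := x) (i := i) (y := n • y) (by
      rw [← mul_one x, ← hn, dist_smul]; exact hy)
    exact ⟨⟨g, h1⟩, Subtype.ext (by change n⁻¹ • g • _ = y; rw [h2, inv_smul_smul])⟩

theorem exists_UU {v z : W} {y : Ch T} (hy : δ (ap T v) y = v⁻¹ * z) :
    ∃ u ∈ UU T v z, u • ap T z = y := by
  generalize hn : ℓ (v⁻¹ * z) = n
  induction n generalizing v y with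
  | zero =>
    have h1 := (wlen_eq_zero T.cox).1 hn
    rw [h1, dist_eq_one] at hy
    exact ⟨1, one_mem _, by rw [one_smul, ← hy, inv_mul_eq_one.1 h1]⟩
  | succ n ih =>
    obtain ⟨i, w, e, hw⟩ := T.cox.inv.exists_left hn
    have hd : LD 𝐬 (v⁻¹ * z) i := by rw [T.cox.LD_iff, hn, e, cancel_l T.cox, hw]
    obtain ⟨y', h1, h2⟩ := exists_mid (hy.trans e)
    obtain ⟨g, h3, rfl⟩ := M.exists_X h1
    have e' : (v * 𝐬 i)⁻¹ * z = w := by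
      rw [mul_inv_rev, gen_inv T.cox, mul_assoc, e, cancel_l T.cox]
    obtain ⟨u, h4, h5⟩ := ih (v := v * 𝐬 i) (y := g⁻¹ • y)
      (by rw [← dist_smul_left, h2, e']) (by rw [e', hw])
    refine ⟨g * u, mul_mem (X_le_UU (isRt_rt v i) (self_mem_rt T.cox v i) (not_not.2 hd) h3)
      (UU_le (fun A hA h6 h7 => X_le_UU hA ?_ h7) h4), by rw [mul_smul, h5, smul_inv_smul]⟩
    by_contra h8
    exact (hA.compl T.cox).convex T.cox (btw_of_LD T.cox hd) h8 h7 h6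

/-- The commutator relation for a simple root. -/
theorem comm_mem {a b : ι} {q : W} (h1 : ∀ c, LD 𝐬 q c ↔ c = a) (h2 : ¬ RD 𝐬 q b) {x y : G}
    (hx : x ∈ X T (rt 𝐬 1 a)) (hy : y ∈ X T (rt 𝐬 q b)) : ⁅x, y⁆ ∈ UU T (𝐬 a) q := by
  have qa : q ∉ rt 𝐬 1 a := by rw [mem_rt, inv_one, one_mul, not_not, h1]
  have a1 := self_mem_rt T.cox 1 a
  have b1 := (one_mem_rt T.cox).2 h2
  have key : ∀ A, IsRt 𝐬 A → (1 : W) ∈ A → A ≠ rt 𝐬 1 a → 𝐬 a ∈ A := fun A hA h3 h4 => by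
    by_contra h5
    exact h4 (hA.eq_of_cross T.cox h3 (by rwa [one_mul]))
  have ba := key _ (isRt_rt q b) b1 fun e => qa (e ▸ self_mem_rt T.cox q b)
  have k1 : ∀ c, ⁅x, y⁆ ∈ Kr T (ap T 1) {c} := fun c => by
    by_cases hc : a = c
    · subst hc
      exact comm_mem_Kr' (hy.2 1 b1 a (by rwa [one_mul])) (by rw [hx.1 1 a1]; exact Rs.refl _ _)
    · exact comm_mem_Kr (hx.2 1 a1 c (mul_gen_mem_rt T.cox hc))
        (by rw [hy.1 1 b1]; exact Rs.refl _ _)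
  have k2 : ⁅x, y⁆ • ap T (q * w0 T) = ap T (q * w0 T) := by
    have e : q * w0 T * 𝐬 (op T b) = q * 𝐬 b * w0 T := by rw [mul_assoc, ← gen_mul_w0, mul_assoc]
    have h3 : q * 𝐬 b ∉ rt 𝐬 1 a := fun h3 => by
      have := ((isRt_rt 1 a).compl T.cox).eq_of_cross T.cox qa (not_not.2 h3)
      exact (this ▸ b1 :) a1
    refine Kr_self (comm_mem_Kr (hx.2 _ ((isRt_rt 1 a).mul_w0_mem.2 qa) (op T b)
      (e ▸ (isRt_rt 1 a).mul_w0_mem.2 h3)) ?_)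
    have h4 := hy.1 _ ((isRt_rt q b).mul_w0_mem.2 (mul_gen_notMem_rt T.cox q b))
    rw [← e] at h4
    have h5 := rs_ap_mul (T := T) (J := {op T b}) (q * w0 T) (gen_mem_WJ rfl)
    exact h5.trans (h5.symm.smul_of_fix h4)
  have k3 : ∀ A, IsRt 𝐬 A → 𝐬 a ∈ A → q ∉ A → (1 : W) ∈ A := fun A hA h3 h4 => by
    by_contra h5
    have := (hA.compl T.cox).eq_of_cross T.cox h5 (k := a) (by rw [one_mul]; exact not_not.2 h3)
    exact qa (this ▸ h4)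
  obtain ⟨u, hu, h3⟩ := M.exists_UU (v := 𝐬 a) (z := q) (y := ⁅x, y⁆ • ap T q) (by
    rw [dist_of_fix (k1 a _ (rs_ap_one (gen_mem_WJ rfl))), dist_ap])
  have h4 : Mv T (u⁻¹ * ⁅x, y⁆) 1 := mv_one_of_top isTop_w0 (x := q)
    (by rw [mul_smul, ← h3, inv_smul_smul]) (by
      rw [mul_smul, k2, inv_smul_eq_iff]
      exact (UU_le_Fx (S := {q * w0 T}) (fun A hA _ h5 =>
        Set.singleton_subset_iff.2 (hA.mul_w0_mem.2 h5)) hu _ rfl).symm)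
  have h5 := M.faith.eq_one (mem_Kr_of_mv (J := Set.univ) h4 (x := 1) fun c _ =>
    mul_mem (inv_mem (UU_le (fun A hA h5 h6 g hg => hg.2 1 (k3 A hA h5 h6) c ?_) hu)) (k1 c))
  · rwa [← inv_mul_eq_one.1 h5]
  · by_contra h7
    have e := hA.eq_of_cross T.cox (k3 A hA h5 h6) h7
    subst e
    rw [mem_rt, inv_one, one_mul, not_not, h1] at h6
    subst h6
    exact h7 (by rwa [one_mul])

/-- The commutator relations in rank two. -/
theorem comm_bt {a b : ι} {k r : ℕ} (hk : k < r) (hr : r < k + orderOf (𝐬 a * 𝐬 b)) {x y : G}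
    (hx : x ∈ X T (bt 𝐬 a b k)) (hy : y ∈ X T (bt 𝐬 a b r)) :
    ⁅x, y⁆ ∈ ⨆ (l : ℕ) (_ : k < l ∧ l < r), X T (bt 𝐬 a b l) := by
  induction k generalizing a b r x y with
  | zero =>
    obtain ⟨r, rfl⟩ := Nat.exists_eq_succ_of_ne_zero hk.ne'
    rw [zero_add] at hr
    refine UU_le (fun A hA h1 h2 => ?_) (M.comm_mem (fun c => LD_av_iff T.cox hr)
      (not_RD_av T.cox hr) hx hy)
    have h3 : (1 : W) ∈ A := by
      by_contra h3
      have := (hA.compl T.cox).eq_of_cross T.cox h3 (k := a) (by rw [one_mul]; exact not_not.2 h1)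
      exact absurd ((av_mem_bt T.cox hr.le (l := 0) (by omega)).1 (by
        rw [bt_zero, ← this]; exact h2)) (by omega)
    obtain ⟨l, hl, rfl⟩ := (hA.inJ T.cox h3 (av_mem a b _) h2).eq_bt T.cox h3
    rw [← av_one (s := 𝐬) a b, av_mem_bt T.cox (by omega) hl] at h1
    rw [av_mem_bt T.cox hr.le hl] at h2
    exact le_iSup₂_of_le (f := fun l (_ : 0 < l ∧ l < r + 1) => X T (bt 𝐬 a b l)) l
      ⟨by omega, by omega⟩ le_rfl
  | succ k ih =>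
    obtain ⟨r, rfl⟩ := Nat.exists_eq_succ_of_ne_zero (show r ≠ 0 by omega)
    obtain ⟨n, hn⟩ := exists_mv T (𝐬 a)
    rw [bt_succ] at hx hy
    have := ih (by omega) (by rw [ord_comm T.cox]; omega) (hn.conj_mem_X' hx) (hn.conj_mem_X' hy)
    have e : ⁅x, y⁆ = MulAut.conj n ⁅n⁻¹ * x * n, n⁻¹ * y * n⁆ := by
      simp only [commutatorElement_def, MulAut.conj_apply]; group
    rw [e]
    refine Subgroup.mem_comap.1 ((iSup₂_le (a := Subgroup.comap (MulAut.conj n).toMonoidHom _)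
      fun l hl g hg => Subgroup.mem_comap.2 ?_) this)
    refine le_iSup₂_of_le (f := fun l (_ : k + 1 < l ∧ l < r + 1) => X T (bt 𝐬 a b l)) (l + 1)
      ⟨by omega, by omega⟩ le_rfl ?_
    rw [bt_succ]
    exact hn.conj_mem_X hg

theorem commute_bt {a b : ι} (hab : a ≠ b) {k : ℕ} {x y : G} (hx : x ∈ X T (bt 𝐬 a b k))
    (hy : y ∈ X T (bt 𝐬 a b (k + 1))) : Commute x y := by
  have := two_le_ord T.cox hab
  rw [← commutatorElement_eq_one_iff_commute, ← Subgroup.mem_bot]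
  exact (iSup₂_le fun l hl => by omega : _ ≤ (⊥ : Subgroup G))
    (M.comm_bt (by omega) (by omega) hx hy)

theorem comm_bt_two {a b : ι} (h3 : 3 ≤ orderOf (𝐬 a * 𝐬 b)) {k : ℕ} {x y : G}
    (hx : x ∈ X T (bt 𝐬 a b k)) (hy : y ∈ X T (bt 𝐬 a b (k + 2))) :
    ⁅x, y⁆ ∈ X T (bt 𝐬 a b (k + 1)) :=
  (iSup₂_le fun l hl => by rw [show l = k + 1 by omega] : _ ≤ X T (bt 𝐬 a b (k + 1)))
    (M.comm_bt (by omega) (by omega) hx hy)

theorem comm_bt_three {a b : ι} (h4 : 4 ≤ orderOf (𝐬 a * 𝐬 b)) {k : ℕ} {x y : G}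
    (hx : x ∈ X T (bt 𝐬 a b k)) (hy : y ∈ X T (bt 𝐬 a b (k + 3))) :
    ∃ u ∈ X T (bt 𝐬 a b (k + 1)), ∃ v ∈ X T (bt 𝐬 a b (k + 2)), ⁅x, y⁆ = u * v := by
  have hab : a ≠ b := by rintro rfl; rw [T.cox.sq, orderOf_one] at h4; omega
  let K : Subgroup G :=
    { carrier := {g | ∃ u ∈ X T (bt 𝐬 a b (k + 1)), ∃ v ∈ X T (bt 𝐬 a b (k + 2)), g = u * v}
      one_mem' := ⟨1, one_mem _, 1, one_mem _, (mul_one _).symm⟩
      mul_mem' := by
        rintro _ _ ⟨u, hu, v, hv, rfl⟩ ⟨u', hu', v', hv', rfl⟩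
        refine ⟨_, mul_mem hu hu', _, mul_mem hv hv', ?_⟩
        rw [mul_assoc, mul_assoc, ← mul_assoc v, ← (M.commute_bt hab hu' hv).eq, mul_assoc]
      inv_mem' := by
        rintro _ ⟨u, hu, v, hv, rfl⟩
        exact ⟨_, inv_mem hu, _, inv_mem hv, by
          rw [(M.commute_bt hab hu hv).eq, mul_inv_rev]⟩ }
  refine (iSup₂_le fun l hl g hg => ?_ : _ ≤ K) (M.comm_bt (by omega) (by omega) hx hy)
  obtain rfl | rfl : l = k + 1 ∨ l = k + 2 := by omega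
  · exact ⟨g, hg, 1, one_mem _, (mul_one _).symm⟩
  · exact ⟨1, one_mem _, g, hg, (one_mul _).symm⟩

/-- Uniqueness of the first factor of an ordered product of root elements. -/
theorem eq_one_of_mem_sup {a b : ι} {k r : ℕ} (hr : r ≤ k + orderOf (𝐬 a * 𝐬 b)) {x : G}
    (hx : x ∈ X T (bt 𝐬 a b k)) (hy : x ∈ ⨆ (l : ℕ) (_ : k < l ∧ l < r), X T (bt 𝐬 a b l)) :
    x = 1 := by
  refine M.eq_one hx (dist_ap_mul _ _) ?_
  refine (iSup₂_le fun l hl g hg => ?_ : _ ≤ Fx T {av 𝐬 a b k * 𝐬 (lt a b k)}) hy _ rfl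
  rintro _ rfl
  refine hg.1 _ ?_
  obtain ⟨j, rfl⟩ := Nat.exists_eq_add_of_lt hl.1
  have := ord_lt (T := T) a b k
  rw [add_assoc, bt_add, mul_mem_tr, ← av_one (s := 𝐬) (lt a b k) (lt b a k),
    av_mem_bt T.cox (by omega) (by omega)]
  omega

theorem exists_m {i : ι} {u : G} (hu : u ∈ X T (rt 𝐬 1 i)) (h1 : u ≠ 1) :
    ∃ k ∈ X T (rt 𝐬 1 i)ᶜ, ∃ l ∈ X T (rt 𝐬 1 i)ᶜ, Mv T (k * u * l) (𝐬 i) := by
  have h0 : ∀ g ∈ X T (rt 𝐬 1 i), g ≠ 1 → δ (ap T (𝐬 i)) (g • ap T (𝐬 i)) = 𝐬 i := by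
    intro g hg h1
    have h2 := rs_ap_one (T := T) (J := {i}) (gen_mem_WJ rfl)
    exact (h2.symm.trans (h2.smul_of_fix (hg.1 1 (self_mem_rt T.cox 1 i)))).dist_eq
      fun e => h1 (M.eq_one hg (dist_ap_one _) e.symm)
  have h2 : δ (ap T (𝐬 i)) (ap T 1) = 𝐬 i := dist_gen_symm (dist_ap_one _)
  obtain ⟨l, hl, e1⟩ := M.exists_X' h2 (h0 _ (inv_mem hu) (inv_ne_one.2 h1))
  obtain ⟨k, hk, e2⟩ := M.exists_X' (h0 _ hu h1) h2
  rw [rt_gen_self] at hk hl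
  have hc := (inJ_one (T := T) i).compl T.cox
  refine ⟨k, hk, l, hl, mv_gen_of_LJ (mul_mem (mul_mem (X_le_LJ hc hk) (X_le_LJ (inJ_one i) hu))
    (X_le_LJ hc hl)) ?_ ?_⟩
  · rw [mul_smul, mul_smul, e1, smul_inv_smul, hk.1 _ (gen_mem_compl i)]
  · rw [mul_smul, mul_smul, hl.1 _ (gen_mem_compl i), e2]

theorem exists_mv_gen (i : ι) : ∃ n ∈ X T (rt 𝐬 1 i) ⊔ X T (rt 𝐬 1 i)ᶜ, Mv T n (𝐬 i) := by
  obtain ⟨u, hu, h1⟩ := M.exists_ne_one (isRt_rt 1 i)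
  obtain ⟨k, hk, l, hl, h⟩ := M.exists_m hu h1
  exact ⟨_, mul_mem (mul_mem (Subgroup.mem_sup_right hk) (Subgroup.mem_sup_left hu))
    (Subgroup.mem_sup_right hl), h⟩

/-- A simple group is generated by the root groups of the simple roots and their negatives. -/
theorem gen_top [IsSimpleGroup G] [Nonempty ι] :
    ⨆ i, X T (rt 𝐬 1 i) ⊔ X T (rt 𝐬 1 i)ᶜ = ⊤ := by
  set K := ⨆ i, X T (rt 𝐬 1 i) ⊔ X T (rt 𝐬 1 i)ᶜ
  have h1 : ∀ w, ∃ n ∈ K, Mv T n w := fun w => by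
    induction w using W_induction T.cox with
    | h1 => exact ⟨1, one_mem _, Mv.one⟩
    | h2 x k _ ih =>
      obtain ⟨n, hn, h⟩ := ih
      obtain ⟨n', hn', h'⟩ := M.exists_mv_gen k
      exact ⟨_, mul_mem hn (Subgroup.mem_iSup_of_mem k hn'), h.mul h'⟩
  have h2 : ∀ A, IsRt 𝐬 A → X T A ≤ K := by
    rintro _ ⟨w, i, rfl⟩ g hg
    obtain ⟨n, hn, h⟩ := h1 w
    have := Subgroup.mem_iSup_of_mem (S := fun i => X T (rt 𝐬 1 i) ⊔ X T (rt 𝐬 1 i)ᶜ) i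
      (Subgroup.mem_sup_left (h.conj_mem_X' (A := rt 𝐬 1 i) (by rwa [tr_rt, mul_one])))
    simpa [mul_assoc] using mul_mem (mul_mem hn this) (inv_mem hn)
  have h3 : ∀ g : G, ∃ k ∈ K, Mv T (k⁻¹ * g) 1 := fun g => by
    obtain ⟨u, hu, e⟩ := M.exists_UU (v := 1) (z := δ (ap T 1) (g • ap T 1)) (y := g • ap T 1)
      (by rw [inv_one, one_mul])
    obtain ⟨n, hn, h⟩ := h1 (δ (ap T 1) (g • ap T 1))
    have e1 : ((u * n)⁻¹ * g) • ap T 1 = ap T 1 := by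
      rw [mul_smul, inv_smul_eq_iff, mul_smul, h, mul_one, e]
    obtain ⟨u', hu', e'⟩ := M.exists_UU (v := 1) (z := w0 T) (y := ((u * n)⁻¹ * g) • ap T (w0 T))
      (by rw [dist_of_fix e1, dist_ap])
    have hK : ∀ z, UU T 1 z ≤ K := fun z => UU_le fun A hA _ _ => h2 A hA
    refine ⟨u * n * u', mul_mem (mul_mem (hK _ hu) hn) (hK _ hu'),
      mv_one_of_top isTop_w0 (x := 1) ?_ ?_⟩
    · rw [mul_inv_rev, mul_assoc, mul_smul, e1, inv_smul_eq_iff]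
      exact (UU_le_Fx (S := {1}) (fun A _ h _ => Set.singleton_subset_iff.2 h) hu' _ rfl).symm
    · rw [one_mul, mul_inv_rev, mul_assoc, mul_smul, ← e', inv_smul_smul]
  have h4 : K.Normal := ⟨fun x hx g => by
    obtain ⟨k, hk, h⟩ := h3 g
    have : k⁻¹ * g * x * (k⁻¹ * g)⁻¹ ∈ K :=
      (iSup_le fun i => sup_le (fun y hy => h2 _ (isRt_rt 1 i) (conj_mem_X_of_Fx (h.mem_Fx _) hy))
        (fun y hy => h2 _ ((isRt_rt 1 i).compl T.cox) (conj_mem_X_of_Fx (h.mem_Fx _) hy)) :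
        K ≤ K.comap (MulAut.conj (k⁻¹ * g)).toMonoidHom) hx
    simpa [mul_assoc] using mul_mem (mul_mem hk this) (inv_mem hk)⟩
  refine (h4.eq_bot_or_eq_top).resolve_left fun h => ?_
  obtain ⟨g, hg, h5⟩ := M.exists_ne_one (isRt_rt 1 (Classical.arbitrary ι))
  exact h5 (Subgroup.mem_bot.1 (h ▸ h2 _ (isRt_rt _ _) hg))

end MH

end Cfsg.Agent.BNP
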