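import Mathlib
import Cfsg.Agent.BNP.Comm
import Cfsg.Agent.Chev.FeitHigman
import Cfsg.Agent.UL.Transport
import Cfsg.Prelude.Def_Classification2

/-!
Residues of a Tits system: the Tits system of a parabolic subgroup, its faithful quotient, and the
Feit–Higman theorem.
-/

set_option autoImplicit false
set_option linter.unusedSectionVars false

namespace Cfsg.Agent.BNP

open Cfsg Cfsg.Agent.St Cfsg.Agent.Chev
open scoped commutatorElement

universe u v

section CoxRes

variable {ι κ W : Type*} [Group W] (s : ι → W) (e : κ → ι)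

/-- The generators of a parabolic subgroup. -/
def sres (k : κ) : WJ s (Set.range e) := ⟨s (e k), gen_mem_WJ ⟨k, rfl⟩⟩

variable {s e}

theorem coe_wprod_sres (l : List κ) :
    ((wprod (sres s e) l : WJ s (Set.range e)) : W) = wprod s (l.map e) := by
  induction l with
  | nil => rfl
  | cons a t ih => simp [ih, sres]

theorem exists_word_sres (h : Cox s) (w : WJ s (Set.range e)) :
    ∃ l : List κ, wprod (sres s e) l = w ∧ l.length = wlen s (w : W) := by
  obtain ⟨l, h1, h2, h3⟩ := h.exists_reduced_mem w.2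
  obtain ⟨l, rfl⟩ : ∃ l' : List κ, l'.map e = l := by
    clear h2 h3
    induction l with
    | nil => exact ⟨[], rfl⟩
    | cons a t ih =>
      obtain ⟨k, rfl⟩ := h1 a (by simp)
      obtain ⟨l', rfl⟩ := ih fun i hi => h1 i (by simp [hi])
      exact ⟨k :: l', rfl⟩
  exact ⟨l, Subtype.ext ((coe_wprod_sres l).trans h3), by rw [← h3, h2, List.length_map]⟩

theorem wlen_sres (h : Cox s) (w : WJ s (Set.range e)) : wlen (sres s e) w = wlen s (w : W) := by
  obtain ⟨l, h1, h2⟩ := exists_word_sres h w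
  refine le_antisymm (by rw [← h2, ← h1]; exact wlen_wprod_le _ l) ?_
  obtain ⟨l', h3, h4⟩ : ∃ l' : List κ, wprod (sres s e) l' = w ∧ l'.length = wlen (sres s e) w :=
    Nat.sInf_mem (s := {k | ∃ l : List κ, wprod (sres s e) l = w ∧ l.length = k}) ⟨_, l, h1, rfl⟩
  rw [← h4, ← h3, coe_wprod_sres, ← List.length_map (f := e)]
  exact wlen_wprod_le _ _

theorem cox_sres (h : Cox s) (he : Function.Injective e) : Cox (sres s e) where
  inv := ⟨fun i => Subtype.ext (h.sq _), by
    refine top_le_iff.1 fun w _ => ?_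
    obtain ⟨l, rfl, -⟩ := exists_word_sres h w
    rw [← Set.image_univ (f := sres s e)]
    exact wprod_mem_WJ (s := sres s e) fun i _ => Set.mem_univ i⟩
  ex l i hl hle := by
    rw [Reduced, wlen_sres h, coe_wprod_sres, ← List.length_map (f := e)] at hl
    rw [wlen_sres h, Subgroup.coe_mul, coe_wprod_sres, ← List.length_map (f := e)] at hle
    obtain ⟨l₁, a, l₂, e1, e2⟩ := h.ex _ _ hl hle
    obtain ⟨l₁, l', rfl, rfl, e3⟩ := List.map_eq_append_iff.1 e1
    obtain ⟨a, l₂, rfl, rfl, -⟩ := List.map_eq_cons_iff.1 e3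
    exact ⟨l₁, a, l₂, rfl, Subtype.ext (by simpa [coe_wprod_sres, sres] using e2)⟩
  inj i j hij := he (h.inj (congrArg Subtype.val hij))

end CoxRes

variable {G : Type u} {ι : Type*} {W : Type v} [Group G] [Group W]

/-- The Tits system of a parabolic subgroup. -/
def titsRes (T : Tits G ι W) {κ : Type*} (e : κ → ι) (he : Function.Injective e) :
    Tits (T.par (Set.range e)) κ (WJ T.s (Set.range e)) where
  s := sres T.s e
  cox := cox_sres T.cox he
  B := T.B.subgroupOf _
  N := T.N.subgroupOf _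
  wt g := ⟨T.wt g, g.2⟩
  wt_eq_one := Subtype.ext_iff.trans T.wt_eq_one
  wt_B_mul hb g := Subtype.ext (T.wt_B_mul hb g)
  wt_inv g := Subtype.ext (T.wt_inv g)
  exists_eq h := by
    obtain ⟨b, hb, b', hb', e1⟩ := T.exists_eq (congrArg Subtype.val h)
    exact ⟨⟨b, T.B_le_par _ hb⟩, hb, ⟨b', T.B_le_par _ hb'⟩, hb', Subtype.ext e1⟩
  wt_N_mul hn hn' := Subtype.ext (T.wt_N_mul hn hn')
  exists_N w := by
    obtain ⟨n, hn, e1⟩ := T.exists_N w
    exact ⟨⟨n, by rw [T.mem_par, e1]; exact w.2⟩, hn, Subtype.ext e1⟩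
  gen_mul h g := (T.gen_mul (congrArg Subtype.val h) g).imp Subtype.ext Subtype.ext
  gen_mul_up h g hg := Subtype.ext (T.gen_mul_up (congrArg Subtype.val h) (by
    rwa [LD, wlen_sres T.cox, wlen_sres T.cox] at hg))
  thick i := by
    obtain ⟨x, y, hx, hy, hxy⟩ := T.thick (e i)
    exact ⟨⟨x, T.mem_par_of_wt_gen (Set.mem_range_self i) hx⟩,
      ⟨y, T.mem_par_of_wt_gen (Set.mem_range_self i) hy⟩,
      Subtype.ext hx, Subtype.ext hy, Subtype.ext hxy⟩

theorem titsRes_par (T : Tits G ι W) {κ : Type*} (e : κ → ι) (he : Function.Injective e) (k : κ) :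
    (titsRes T e he).par {k} = (T.par {e k}).subgroupOf _ := by
  ext g
  rw [Subgroup.mem_subgroupOf, Tits.mem_par, Tits.mem_par, mem_WJ_one T.cox,
    mem_WJ_one (titsRes T e he).cox, Subtype.ext_iff, Subtype.ext_iff]
  rfl

/-- Enlarging `N` by the kernel of the action on the chambers. -/
def titsSat (T : Tits G ι W) : Tits G ι W :=
  { T with
    N := T.N ⊔ T.B.normalCore
    wt_N_mul := fun {n n'} hn hn' => by
      obtain ⟨a, ha, k, hk, rfl⟩ := Subgroup.mem_sup_of_normal_right.1 hn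
      obtain ⟨a', ha', k', hk', rfl⟩ := Subgroup.mem_sup_of_normal_right.1 hn'
      rw [show a * k * (a' * k') = a * a' * (a'⁻¹ * k * a'⁻¹⁻¹ * k') by group,
        T.wt_mul_B _ (mul_mem (hk _) (T.B.normalCore_le hk')), T.wt_mul_B _ (T.B.normalCore_le hk),
        T.wt_mul_B _ (T.B.normalCore_le hk'), T.wt_N_mul ha ha']
    exists_N := fun w => by
      obtain ⟨n, hn, e⟩ := T.exists_N w
      exact ⟨n, Subgroup.mem_sup_left hn, e⟩ }

theorem ker_le_sat (T : Tits G ι W) : (QuotientGroup.mk' T.B.normalCore).ker ≤ (titsSat T).H := by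
  rw [QuotientGroup.ker_mk']
  exact le_inf T.B.normalCore_le le_sup_right

/-- The faithful quotient. -/
noncomputable def titsQuot (T : Tits G ι W) : Tits (G ⧸ T.B.normalCore) ι W :=
  UL.titsMap (titsSat T) (QuotientGroup.mk' _) (QuotientGroup.mk'_surjective _) (ker_le_sat T)

theorem faith_iff (T : Tits G ι W) : Faith T ↔ T.B.normalCore = ⊥ := by
  rw [Subgroup.normalCore_eq_ker, Subgroup.eq_bot_iff_forall]
  exact forall_congr' fun g => imp_congr_left ⟨fun h => Equiv.ext h, fun h x => Equiv.congr_fun h x⟩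

theorem faith_quot (T : Tits G ι W) : Faith (titsQuot T) := by
  rw [faith_iff, Subgroup.eq_bot_iff_forall]
  intro g hg
  obtain ⟨g, rfl⟩ := QuotientGroup.mk'_surjective _ g
  refine (QuotientGroup.eq_one_iff g).2 fun x => ?_
  have := hg (QuotientGroup.mk' _ x)
  rw [← map_inv, ← map_mul, ← map_mul] at this
  exact (UL.mem_map_iff_of_ker ((ker_le_sat T).trans (titsSat T).H_le_B)).1 this

theorem relIndex_quot (T : Tits G ι W) (J : Set ι) :
    (titsQuot T).B.relIndex ((titsQuot T).par J) = T.B.relIndex (T.par J) := by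
  have h1 : (QuotientGroup.mk' T.B.normalCore).ker ≤ T.B := (ker_le_sat T).trans (titsSat T).H_le_B
  have h2 : (titsQuot T).par J = (T.par J).map (QuotientGroup.mk' _) := by
    ext g
    obtain ⟨g, rfl⟩ := QuotientGroup.mk'_surjective _ g
    rw [UL.mem_map_iff_of_ker (h1.trans (T.B_le_par J))]
    exact UL.mem_titsMap_par _ _ _ _
  rw [h2]
  exact (Subgroup.relIndex_map_map _ _ _).trans (by
    rw [sup_eq_left.2 (h1.trans (T.B_le_par J))]
    exact congrArg (Subgroup.relIndex · _) (sup_eq_left.2 h1))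

/-- Representatives of the simple reflections. -/
noncomputable def rep (T : Tits G ι W) (i : ι) : G := (T.exists_N (T.s i)).choose

theorem rep_mem (T : Tits G ι W) (i : ι) : rep T i ∈ T.N := (T.exists_N (T.s i)).choose_spec.1

theorem wt_rep (T : Tits G ι W) (i : ι) : T.wt (rep T i) = T.s i :=
  (T.exists_N (T.s i)).choose_spec.2

/-- The homomorphism from `N` to the Weyl group. -/
def wtN (T : Tits G ι W) : T.N →* W := MonoidHom.mk' (fun n => T.wt n) fun a b => T.wt_N_mul a.2 b.2

/-- The (B,N)-pair of a Tits system. -/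
def toBN (T : Tits G ι W) : BNPair G where
  B := T.B
  N := T.N
  S := Set.range (rep T)
  sup_eq_top := top_le_iff.1 fun g _ => by
    obtain ⟨b, hb, n, hn, b', hb', -, rfl⟩ := T.exists_BNB g
    exact mul_mem (mul_mem (Subgroup.mem_sup_left hb) (Subgroup.mem_sup_right hn))
      (Subgroup.mem_sup_left hb')
  conj_mem n hn t ht := by
    rw [← T.wt_eq_one, T.wt_N_mul (mul_mem hn ht.2) (inv_mem hn), T.wt_mul_B _ ht.1, T.wt_inv,
      mul_inv_cancel]
  subset := by rintro _ ⟨i, rfl⟩; exact rep_mem T i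
  sq_mem := by
    rintro _ ⟨i, rfl⟩
    rw [← T.wt_eq_one, T.wt_N_mul (rep_mem T i) (rep_mem T i), wt_rep, T.cox.sq]
  inj := by
    rintro _ ⟨i, rfl⟩ _ ⟨j, rfl⟩ h
    rw [← T.wt_eq_one, T.wt_N_mul (inv_mem (rep_mem T i)) (rep_mem T j), T.wt_inv, wt_rep, wt_rep,
      inv_mul_eq_one] at h
    rw [T.cox.inj h]
  closure_sup := by
    refine le_antisymm (sup_le ((Subgroup.closure_le _).2 ?_) inf_le_right) fun n hn => ?_
    · rintro _ ⟨i, rfl⟩; exact rep_mem T i
    · obtain ⟨l, hl⟩ := T.cox.inv.exists_word (T.wt n)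
      induction l generalizing n with
      | nil => exact Subgroup.mem_sup_right ⟨T.wt_eq_one.1 hl.symm, hn⟩
      | cons a t ih =>
        rw [← mul_inv_cancel_left (rep T a) n]
        refine mul_mem (Subgroup.mem_sup_left (Subgroup.subset_closure ⟨a, rfl⟩))
          (ih _ (mul_mem (inv_mem (rep_mem T a)) hn) ?_)
        rw [T.wt_N_mul (inv_mem (rep_mem T a)) hn, T.wt_inv, wt_rep, ← hl, wprod_cons,
          inv_mul_cancel_left]
  mul_mem_union := by
    rintro _ ⟨i, rfl⟩ n hn b hb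
    rcases T.gen_mul (x := rep T i * b) (by rw [T.wt_mul_B _ hb, wt_rep]) n with h | h
    · rw [← wt_rep, ← T.wt_N_mul (rep_mem T i) hn] at h
      exact .inl (DoubleCoset.mem_doubleCoset.2 (T.exists_eq h.symm))
    · exact .inr (DoubleCoset.mem_doubleCoset.2 (T.exists_eq h.symm))
  conj_ne := by
    rintro _ ⟨i, rfl⟩ h
    obtain ⟨x, y, hx, hy, hxy⟩ := T.thick i
    obtain ⟨a, ha, b, hb, rfl⟩ := T.exists_eq ((wt_rep T i).trans hx.symm)
    obtain ⟨c, hc, d, hd, rfl⟩ := T.exists_eq ((wt_rep T i).trans hy.symm)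
    have h1 : rep T i * (b * c) * rep T i ∈ (T.B : Set G) := h ▸ ⟨b * c, mul_mem hb hc, rfl⟩
    rw [show a * rep T i * b * (c * rep T i * d) = a * (rep T i * (b * c) * rep T i * d) by group,
      T.wt_of_mem (mul_mem ha (mul_mem h1 hd))] at hxy
    exact gen_ne_one' T.cox i hxy.symm

theorem orderOf_toBN (T : Tits G ι W) (i j : ι) :
    orderOf (BN.gen (toBN T) ⟨rep T i, i, rfl⟩ * BN.gen (toBN T) ⟨rep T j, j, rfl⟩) =
      orderOf (T.s i * T.s j) := by
  refine orderOf_eq_orderOf_iff.2 fun k => ?_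
  have := map_pow (wtN T) (⟨rep T i, rep_mem T i⟩ * ⟨rep T j, rep_mem T j⟩) k
  rw [map_mul] at this
  rw [← wt_rep, ← wt_rep]
  refine (BN.mk_eq_one_iff (P := toBN T)
    (n := (⟨rep T i, rep_mem T i⟩ * ⟨rep T j, rep_mem T j⟩) ^ k)).trans ?_
  exact T.wt_eq_one.symm.trans (Eq.congr_left this)

variable [Finite W]

theorem feit_higman_tits [Finite G] (T : Tits G ι W) {i j : ι} (h : i ≠ j) :
    orderOf (T.s i * T.s j) ∈ ({2, 3, 4, 6, 8} : Set ℕ) := by
  have he : Function.Injective ![i, j] := by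
    intro a b
    fin_cases a <;> fin_cases b <;> simp [h, h.symm]
  let R := titsRes T _ he
  have h1 := FH.orderOf_mem (P := toBN R) (s := ⟨rep R 0, 0, rfl⟩) (t := ⟨rep R 1, 1, rfl⟩) (by
    rintro ⟨_, k, rfl⟩
    fin_cases k <;> simp) fun h => by
      have := congrArg (fun x => R.wt x.1) h
      simp only [wt_rep] at this
      exact zero_ne_one (R.cox.inj this)
  rwa [orderOf_toBN, ← Subgroup.orderOf_coe] at h1

theorem relIndex_eq_qq [Finite G] (T : Tits G ι W) (i : ι) :
    T.B.relIndex (T.par {i}) = qq T i + 1 := by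
  have h1 : T.B.subgroupOf (T.par {i}) = MulAction.stabilizer (T.par {i}) (ap T 1) := by
    ext g
    change g.1 ∈ T.B ↔ g.1 • ap T 1 = ap T 1
    rw [ap_one, smul_mk, QuotientGroup.eq]
    simp
  have h2 : MulAction.orbit (T.par {i}) (ap T 1) = insert (ap T 1) {y | dist T (ap T 1) y = T.s i} := by
    ext y
    induction y using QuotientGroup.induction_on with | H y => ?_
    rw [Set.mem_insert_iff, Set.mem_ofPred_eq, eq_comm, ← rs_one, Rs, ap_one, dist_mk, inv_one, one_mul,
      ← T.mem_par]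
    refine ⟨?_, fun h => ⟨⟨y, h⟩, congrArg _ (mul_one y)⟩⟩
    rintro ⟨g, hg⟩
    have h3 : (g * 1)⁻¹ * y ∈ T.B := QuotientGroup.eq.1 hg
    simpa using mul_mem g.2 (T.B_le_par {i} h3)
  rw [Subgroup.relIndex, h1, MulAction.index_stabilizer, h2, Set.ncard_insert_of_notMem, qq]
  exact fun h => ne_of_dist_gen h rfl

theorem exists_res [Finite G] (T : Tits G ι W) {κ : Type} (e : κ → ι) (he : Function.Injective e) :
    ∃ (G' : Type u) (W' : Type v) (_ : Group G') (_ : Group W') (_ : Finite G') (_ : Finite W')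
      (T' : Tits G' κ W'), Faith T' ∧
      (∀ i j, orderOf (T'.s i * T'.s j) = orderOf (T.s (e i) * T.s (e j))) ∧
      ∀ i, qq T' i = qq T (e i) := by
  refine ⟨_, _, _, _, inferInstance, inferInstance, titsQuot (titsRes T e he), faith_quot _,
    fun i j => (Subgroup.orderOf_coe _).symm, fun i => Nat.succ_injective ?_⟩
  refine (relIndex_eq_qq _ i).symm.trans (Eq.trans ?_ (relIndex_eq_qq T (e i)))
  rw [relIndex_quot, titsRes_par]
  exact Subgroup.relIndex_subgroupOf (T.par_mono (by simp))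

theorem faith_of_simple [IsSimpleGroup G] [Nonempty ι] (T : Tits G ι W) : Faith T := by
  rw [faith_iff]
  refine (Subgroup.Normal.eq_bot_or_eq_top inferInstance).resolve_right fun h => ?_
  obtain ⟨i⟩ := ‹Nonempty ι›
  exact gen_ne_one' T.cox i ((wt_rep T i).symm.trans
    (T.wt_of_mem (T.B.normalCore_le (h ▸ Subgroup.mem_top _))))

end Cfsg.Agent.BNP
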